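import Cfsg.Agent.ThompsonFive.Operator

/-!
# A long Jordan block from a nontrivial action on an abelian `p'`-group

`E` is an abelian `p'`-group acting faithfully on the `p`-group `W`, normalised by the abelian
`p`-group `A`, acting nontrivially on `E`. Some generator-independent vector `εe v + εe⁻¹ v` is
not killed by `(a-1)^(q-1)`, where `q = |A : R₁|`.
-/

set_option autoImplicit false

namespace Cfsg.Agent.ThompsonFive

variable {p : ℕ} [hp : Fact p.Prime]
variable {A E W : Type*} [CommGroup A] [Finite A] [CommGroup E] [Finite E]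
  [AddCommGroup W] [Finite W]

theorem sum_end_apply {M : Type*} [AddCommGroup M] {ι : Type*} (s : Finset ι)
    (f : ι → AddMonoid.End M) (x : M) :
    (∑ i ∈ s, f i : AddMonoid.End M) x = ∑ i ∈ s, f i x :=
  map_sum ({ toFun := fun g => g x, map_zero' := rfl, map_add' := fun _ _ => rfl } :
    AddMonoid.End M →+ M) f s

/-- The elements of `E` fixed by `R`. -/
def fixE (θ : A →* MulAut E) (R : Subgroup A) : Subgroup E where
  carrier := {e | ∀ r ∈ R, θ r e = e}
  one_mem' := fun r _ => map_one _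
  mul_mem' := fun {x y} hx hy r hr => by rw [map_mul, hx r hr, hy r hr]
  inv_mem' := fun {x} hx r hr => by rw [map_inv, hx r hr]

theorem theta_comm (θ : A →* MulAut E) (a b : A) (e : E) : θ a (θ b e) = θ b (θ a e) := by
  show (θ a * θ b) e = (θ b * θ a) e
  rw [← map_mul, ← map_mul, mul_comm]

theorem theta_mul (θ : A →* MulAut E) (a b : A) (e : E) : θ (a * b) e = θ a (θ b e) := by
  rw [map_mul]; rfl

/-- A subgroup `R` whose complement acts without fixed points on a nontrivial invariant subgroup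
on which `R` acts trivially has cyclic quotient. -/
theorem isCyclic_quotient_of_fpf (θ : A →* MulAut E) (R : Subgroup A) (E₁ : Subgroup E)
    (hne : E₁ ≠ ⊥) (hinv : ∀ b, ∀ e ∈ E₁, θ b e ∈ E₁) (hR : ∀ r ∈ R, ∀ e ∈ E₁, θ r e = e)
    (hfpf : ∀ g, g ∉ R → ∀ e ∈ E₁, θ g e = e → e = 1) : IsCyclic (A ⧸ R) := by
  classical
  obtain ⟨E₂, ⟨h2ne, h2le, h2inv⟩, h2min⟩ := Set.exists_min_image
    {S : Subgroup E | S ≠ ⊥ ∧ S ≤ E₁ ∧ ∀ b, ∀ e ∈ S, θ b e ∈ S} (fun S => Nat.card S)
    (Set.toFinite _) ⟨E₁, hne, le_rfl, hinv⟩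
  haveI : Nontrivial E₂ := (Subgroup.nontrivial_iff_ne_bot E₂).2 h2ne
  let f : A →* AddMonoid.End (Additive E₂) :=
    { toFun := fun b => MonoidHom.toAdditive
        { toFun := fun e => (⟨θ b (e : E), h2inv b e e.2⟩ : E₂)
          map_one' := Subtype.ext (map_one (θ b))
          map_mul' := fun x y => Subtype.ext (map_mul (θ b) (x : E) (y : E)) }
      map_one' := AddMonoidHom.ext fun x => by
        apply Additive.toMul.injective
        apply Subtype.ext
        show θ 1 ((Additive.toMul x : E₂) : E) = _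
        rw [map_one]; rfl
      map_mul' := fun b c => AddMonoidHom.ext fun x => by
        apply Additive.toMul.injective
        apply Subtype.ext
        exact theta_mul θ b c _ }
  have hfapp : ∀ b (x : Additive E₂),
      (((Additive.toMul (f b x)) : E₂) : E) = θ b ((Additive.toMul x : E₂) : E) := fun b x => rfl
  set S := Subring.closure (Set.range f) with hS
  have hScomm : ∀ x ∈ Set.range f, ∀ y ∈ Set.range f, x * y = y * x := by
    rintro _ ⟨a, rfl⟩ _ ⟨b, rfl⟩
    rw [← map_mul, ← map_mul, mul_comm]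
  letI : CommRing S := Subring.closureCommRingOfComm hScomm
  have hcent : ∀ s ∈ S, ∀ b, s * f b = f b * s := by
    intro s hs b
    induction hs using Subring.closure_induction with
    | mem x hx => exact hScomm x hx _ ⟨b, rfl⟩
    | zero => rw [zero_mul, mul_zero]
    | one => rw [one_mul, mul_one]
    | add x y _ _ hx hy => rw [add_mul, mul_add, hx, hy]
    | neg x _ hx => exact (Commute.neg_left hx : Commute (-x) (f b))
    | mul x y _ _ hx hy => rw [mul_assoc, hy, ← mul_assoc, hx, mul_assoc]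
  have hinj : ∀ s ∈ S, s ≠ 0 → ∀ x, s x = 0 → x = 0 := by
    intro s hs hs0 x hx
    let T : Subgroup E :=
      { carrier := {e | ∃ h : e ∈ E₂, s (Additive.ofMul (⟨e, h⟩ : E₂)) = 0}
        one_mem' := ⟨one_mem _, map_zero s⟩
        mul_mem' := by
          rintro e e' ⟨h, he⟩ ⟨h', he'⟩
          refine ⟨mul_mem h h', ?_⟩
          show s (Additive.ofMul (⟨e, h⟩ : E₂) + Additive.ofMul (⟨e', h'⟩ : E₂)) = 0
          rw [map_add, he, he', add_zero]
        inv_mem' := by
          rintro e ⟨h, he⟩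
          refine ⟨inv_mem h, ?_⟩
          show s (-Additive.ofMul (⟨e, h⟩ : E₂)) = 0
          rw [map_neg, he, neg_zero] }
    have hTle : T ≤ E₂ := fun e he => he.1
    by_contra hx0
    have hTne : T ≠ ⊥ := by
      intro hT
      have hm : ((Additive.toMul x : E₂) : E) ∈ T := ⟨(Additive.toMul x).2, hx⟩
      rw [hT, Subgroup.mem_bot] at hm
      exact hx0 (Additive.toMul.injective (Subtype.ext hm))
    have hTinv : ∀ b, ∀ e ∈ T, θ b e ∈ T := by
      rintro b e ⟨h, he⟩
      refine ⟨h2inv b e h, ?_⟩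
      show (s * f b) (Additive.ofMul (⟨e, h⟩ : E₂)) = 0
      rw [hcent s hs b]
      show f b (s _) = 0
      rw [he, map_zero]
    have hTE : T = E₂ :=
      Subgroup.eq_of_le_of_card_ge hTle (h2min T ⟨hTne, hTle.trans h2le, hTinv⟩)
    apply hs0
    refine AddMonoidHom.ext fun y => ?_
    obtain ⟨_, hy⟩ : ((Additive.toMul y : E₂) : E) ∈ T := hTE.symm ▸ (Additive.toMul y).2
    exact hy
  haveI : Nontrivial S := ⟨⟨0, 1, fun h => by
    obtain ⟨y, hy⟩ := exists_ne (0 : Additive E₂)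
    exact hy (DFunLike.congr_fun (congrArg Subtype.val h) y).symm⟩⟩
  haveI : NoZeroDivisors S := ⟨fun {s t} hst => by
    by_contra hc
    rw [not_or] at hc
    apply hc.2
    apply Subtype.ext
    refine AddMonoidHom.ext fun y => ?_
    have h0 := DFunLike.congr_fun (congrArg Subtype.val hst) y
    exact hinj s.1 s.2 (fun h => hc.1 (Subtype.ext h)) _ h0⟩
  haveI : IsDomain S := NoZeroDivisors.to_isDomain S
  let g : A →* S :=
    { toFun := fun b => ⟨f b, Subring.subset_closure ⟨b, rfl⟩⟩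
      map_one' := Subtype.ext (map_one f)
      map_mul' := fun b c => Subtype.ext (map_mul f b c) }
  have hgR : R ≤ g.ker := fun r hr => by
    apply Subtype.ext
    apply AddMonoidHom.ext
    intro x
    apply Additive.toMul.injective
    apply Subtype.ext
    exact hR r hr _ (h2le (Additive.toMul x).2)
  refine isCyclic_of_injective_ringHom (QuotientGroup.lift R g hgR) ?_
  rw [injective_iff_map_eq_one]
  intro y hy
  obtain ⟨b, rfl⟩ := QuotientGroup.mk'_surjective R y
  refine (QuotientGroup.eq_one_iff b).2 ?_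
  by_contra hb
  obtain ⟨e, he⟩ := exists_ne (1 : E₂)
  refine he (Subtype.ext (hfpf b hb e (h2le e.2) ?_))
  have h1 : f b = 1 := congrArg Subtype.val hy
  have := hfapp b (Additive.ofMul e)
  rw [h1] at this
  exact this.symm

/-- A `p`-group acting linearly on a nontrivial `p`-group fixes a nonzero vector. -/
theorem exists_fixed_ne_zero (hA : IsPGroup p A) (hW : ∀ w : W, p • w = 0)
    (ρ : A →* AddMonoid.End W) (L : AddSubgroup W) (hL : L ≠ ⊥)
    (hinv : ∀ a, ∀ w ∈ L, ρ a w ∈ L) : ∃ v ∈ L, v ≠ 0 ∧ ∀ a, ρ a v = v := by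
  letI : MulAction A L :=
    { smul := fun a x => ⟨ρ a x, hinv a x x.2⟩
      one_smul := fun x => Subtype.ext (by show ρ 1 (x : W) = x; rw [map_one]; rfl)
      mul_smul := fun a b x => Subtype.ext (by
        show ρ (a * b) (x : W) = ρ a (ρ b x); rw [map_mul]; rfl) }
  obtain ⟨k, hk⟩ := addSubgroup_card_pow hW L
  have hdvd : p ∣ Nat.card L := by
    rw [hk]
    refine dvd_pow_self p fun hk0 => hL ?_
    rw [hk0, pow_zero] at hk
    exact AddSubgroup.eq_bot_of_card_eq L hk
  have h0 : (0 : L) ∈ MulAction.fixedPoints A L := fun a => Subtype.ext (map_zero (ρ a))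
  obtain ⟨v, hv, hne⟩ := hA.exists_fixed_point_of_prime_dvd_card_of_fixed_point L hdvd h0
  exact ⟨v, v.2, fun h => hne (Subtype.ext h.symm), fun a => congrArg Subtype.val (hv a)⟩

/-- In characteristic `p ≥ 3`, sums of twisted characters do not vanish. -/
theorem exists_sum_ne_zero (hp3 : 3 ≤ p) {F : Type*} [Field F] [CharP F p]
    (θ : A →* MulAut E) (E₁ : Subgroup E) (hinv : ∀ b, ∀ e ∈ E₁, θ b e ∈ E₁) (R₁ : Subgroup A)
    (hfpf : ∀ g, g ∉ R₁ → ∀ e ∈ E₁, θ g e = e → e = 1) {a : A} {q : ℕ}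
    (hq : ∀ n, a ^ n ∈ R₁ → q ∣ n) (hq1 : q ≠ 0) (hq2 : q.Coprime 2)
    (χ : E₁ →* F) (hχ : χ ≠ 1) :
    ∃ e : E₁, ∑ i ∈ Finset.range q, (χ ⟨θ (a ^ i) (e : E), hinv _ e e.2⟩ +
      χ ⟨θ (a ^ i) ((e⁻¹ : E₁) : E), hinv _ _ (e⁻¹).2⟩) ≠ 0 := by
  classical
  by_contra hall
  push Not at hall
  let tw : A → (E₁ →* E₁) := fun g =>
    MonoidHom.mk' (fun e => ⟨θ g (e : E), hinv g e e.2⟩) fun x y =>
      Subtype.ext (map_mul (θ g) (x : E) (y : E))
  -- twisting by an element outside `R₁` changes `χ`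
  have hkey : ∀ g, χ.comp (tw g) = χ → g ∈ R₁ := by
    intro g hg
    by_contra hgR
    apply hχ
    let d : E₁ →* E₁ := MonoidHom.mk' (fun e => tw g e / e) fun x y => by
      show tw g (x * y) / (x * y) = _
      rw [map_mul, mul_div_mul_comm]
    have hd : Function.Injective d := by
      rw [injective_iff_map_eq_one]
      intro e he
      have he' : tw g e = e := div_eq_one.1 he
      exact Subtype.ext (hfpf g hgR e e.2 (congrArg Subtype.val he'))
    ext y
    obtain ⟨e, rfl⟩ := Finite.injective_iff_surjective.1 hd y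
    show χ (tw g e / e) = 1
    have he : χ (tw g e) = χ e := DFunLike.congr_fun hg e
    have h1 : χ (tw g e / e) * χ e = χ e := by rw [← map_mul, div_mul_cancel, he]
    have hne : χ e ≠ 0 := fun h0 => one_ne_zero (α := F) (by
      rw [← map_one χ, ← mul_inv_cancel e, map_mul, h0, zero_mul])
    exact mul_eq_right₀ hne |>.1 h1
  let l₁ : ℕ → (E₁ →* F) := fun i => χ.comp (tw (a ^ i))
  let invE : E₁ →* E₁ := MonoidHom.mk' (fun e => e⁻¹) fun x y => mul_inv x y
  let l₂ : ℕ → (E₁ →* F) := fun i => (l₁ i).comp invE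
  have h0 : l₁ 0 = χ := by
    ext e
    show χ _ = χ e
    congr 1
    apply Subtype.ext
    show θ (a ^ 0) (e : E) = e
    rw [pow_zero, map_one]; rfl
  have hsum : Finsupp.linearCombination F (fun f : E₁ →* F => (f : E₁ → F))
      (∑ i ∈ Finset.range q, (Finsupp.single (l₁ i) (1 : F) + Finsupp.single (l₂ i) 1)) = 0 := by
    simp only [map_sum, map_add, Finsupp.linearCombination_single, one_smul]
    ext e
    rw [Finset.sum_apply]
    exact hall e
  have hz := linearIndependent_iff.1 (linearIndependent_monoidHom E₁ F) _ hsum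
  have hz' := DFunLike.congr_fun hz χ
  simp only [Finsupp.coe_zero, Pi.zero_apply, Finsupp.finset_sum_apply, Finsupp.add_apply,
    Finsupp.single_apply] at hz'
  have hi1 : ∀ i ∈ Finset.range q, i ≠ 0 → l₁ i ≠ χ ∧ l₂ i ≠ χ := by
    intro i hi hi0
    have hiq : i < q := Finset.mem_range.1 hi
    have hndvd : ¬ q ∣ i := fun h => absurd (Nat.le_of_dvd (Nat.pos_of_ne_zero hi0) h) (by omega)
    refine ⟨fun h => hndvd (hq i (hkey _ h)), fun h => ?_⟩
    have h2 : χ.comp (tw (a ^ (2 * i))) = χ := by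
      ext e
      have e1 : tw (a ^ (2 * i)) e = tw (a ^ i) (tw (a ^ i) e) := by
        apply Subtype.ext
        show θ (a ^ (2 * i)) (e : E) = θ (a ^ i) (θ (a ^ i) (e : E))
        rw [two_mul, pow_add, theta_mul]
      have h3 : ∀ y, χ (tw (a ^ i) y⁻¹) = χ y := fun y => DFunLike.congr_fun h y
      show χ (tw (a ^ (2 * i)) e) = χ e
      have h4 := h3 (tw (a ^ i) e)⁻¹
      rw [inv_inv] at h4
      rw [e1, h4, ← map_inv, h3 e]
    exact hndvd (hq2.dvd_of_dvd_mul_left (hq _ (hkey _ h2)))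
  rw [Finset.sum_eq_single_of_mem 0 (Finset.mem_range.2 (Nat.pos_of_ne_zero hq1))
    (fun i hi hi0 => by rw [if_neg (hi1 i hi hi0).1, if_neg (hi1 i hi hi0).2, add_zero]),
    if_pos h0] at hz'
  split_ifs at hz'
  · have : ((2 : ℕ) : F) = 0 := by rw [← hz']; norm_num
    have := Nat.le_of_dvd (by omega) ((CharP.cast_eq_zero_iff F p 2).1 this)
    omega
  · rw [add_zero] at hz'
    exact one_ne_zero hz'

/-- The module lemma. -/
theorem exists_charSum (hp3 : 3 ≤ p) (hA : IsPGroup p A) (hW : ∀ w : W, p • w = 0)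
    (hE : (Nat.card E).Coprime p) (ρ : A →* AddMonoid.End W) (ε : E →* AddMonoid.End W)
    (hε : Function.Injective ε) (θ : A →* MulAut E)
    (hcompat : ∀ a e, ρ a * ε e = ε (θ a e) * ρ a) (hθ : θ ≠ 1) :
    ∃ (R₁ : Subgroup A) (j : ℕ) (E₁ : Subgroup E) (v : W), 1 ≤ j ∧ R₁.index = p ^ j ∧
      (∃ a, Subgroup.zpowers a ⊔ R₁ = ⊤) ∧ (∀ b, ∀ e ∈ E₁, θ b e ∈ E₁) ∧
      (∀ r ∈ R₁, ∀ e ∈ E₁, θ r e = e) ∧ (∀ b, ρ b v = v) ∧
      ∀ a, Subgroup.zpowers a ⊔ R₁ = ⊤ →
        ∃ e ∈ E₁, ((ρ a - 1) ^ (p ^ j - 1) : AddMonoid.End W) (ε e v + ε e⁻¹ v) ≠ 0 := by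
  classical
  -- `R₁` is maximal among the subgroups with fixed points not centralised by `A`
  have hne0 : ∃ e a, θ a e ≠ e := by
    by_contra hall
    push Not at hall
    apply hθ
    ext a e
    exact hall e a
  obtain ⟨R₁, hR₁, hmax⟩ := Set.exists_max_image
    {R : Subgroup A | ∃ e ∈ fixE θ R, ∃ a, θ a e ≠ e} (fun R => Nat.card R) (Set.toFinite _)
    ⟨θ.ker, by
      obtain ⟨e, a, h⟩ := hne0
      exact ⟨e, fun r hr => by rw [MonoidHom.mem_ker.1 hr]; rfl, a, h⟩⟩
  set F₁ := fixE θ R₁ with hF₁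
  have hFinv : ∀ b, ∀ e ∈ F₁, θ b e ∈ F₁ := fun b e he r hr => by
    rw [theta_comm, he r hr]
  set E₁ := Subgroup.closure {x | ∃ a, ∃ e ∈ F₁, θ a e / e = x} with hE₁
  have hEF : E₁ ≤ F₁ := (Subgroup.closure_le _).2 (by
    rintro _ ⟨a, e, he, rfl⟩; exact F₁.div_mem (hFinv a e he) he)
  have hEinv : ∀ b, ∀ e ∈ E₁, θ b e ∈ E₁ := by
    intro b e he
    induction he using Subgroup.closure_induction with
    | mem x hx =>
      obtain ⟨a, y, hy, rfl⟩ := hx
      exact Subgroup.subset_closure ⟨a, θ b y, hFinv b y hy, by rw [map_div, theta_comm]⟩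
    | one => rw [map_one]; exact one_mem _
    | mul x y _ _ hx hy => rw [map_mul]; exact mul_mem hx hy
    | inv x _ hx => rw [map_inv]; exact inv_mem hx
  have hEne : E₁ ≠ ⊥ := by
    obtain ⟨e, he, a, hae⟩ := hR₁
    intro hbot
    apply hae
    have : θ a e / e ∈ E₁ := Subgroup.subset_closure ⟨a, e, he, rfl⟩
    rw [hbot, Subgroup.mem_bot, div_eq_one] at this
    exact this
  -- the fixed points of `A` on `E₁` are trivial
  haveI := Fintype.ofFinite A
  have hnorm : ∀ e ∈ E₁, ∏ a : A, θ a e = 1 := by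
    intro e he
    induction he using Subgroup.closure_induction with
    | mem x hx =>
      obtain ⟨b, y, -, rfl⟩ := hx
      simp only [map_div, Finset.prod_div_distrib, div_eq_one]
      exact Fintype.prod_equiv (Equiv.mulRight b) _ _ fun c => (theta_mul θ c b y).symm
    | one => simp
    | mul x y _ _ hx hy => simp only [map_mul, Finset.prod_mul_distrib, hx, hy, mul_one]
    | inv x _ hx => simp only [map_inv, Finset.prod_inv_distrib, hx, inv_one]
  have hfixA : ∀ e ∈ E₁, (∀ a, θ a e = e) → e = 1 := by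
    intro e he hfix
    have h1 := hnorm e he
    simp only [hfix, Finset.prod_const, Finset.card_univ] at h1
    rw [← Nat.card_eq_fintype_card] at h1
    obtain ⟨k, hk⟩ := IsPGroup.iff_card.1 hA
    have hco : (Nat.card E).Coprime (Nat.card A) := hk ▸ hE.pow_right k
    have hd : orderOf e ∣ Nat.gcd (Nat.card E) (Nat.card A) :=
      Nat.dvd_gcd (orderOf_dvd_natCard e) (orderOf_dvd_of_pow_eq_one h1)
    rw [hco] at hd
    exact orderOf_eq_one_iff.1 (Nat.dvd_one.1 hd)
  have hfpf : ∀ g, g ∉ R₁ → ∀ e ∈ E₁, θ g e = e → e = 1 := by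
    intro g hg e he hge
    refine hfixA e he fun a => ?_
    by_contra hne
    have hmem : e ∈ fixE θ (R₁ ⊔ Subgroup.zpowers g) := by
      intro r hr
      have hle : R₁ ⊔ Subgroup.zpowers g ≤ (MulAction.stabilizer (MulAut E) e).comap θ :=
        sup_le (fun r hr => hEF he r hr) (Subgroup.zpowers_le.2 hge)
      exact hle hr
    have hlt : R₁ < R₁ ⊔ Subgroup.zpowers g :=
      lt_of_le_of_ne le_sup_left fun h => hg (h ▸ Subgroup.mem_sup_right (Subgroup.mem_zpowers g))
    exact hlt.ne (Subgroup.eq_of_le_of_card_ge hlt.le (hmax _ ⟨e, hmem, a, hne⟩))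
  haveI : IsCyclic (A ⧸ R₁) :=
    isCyclic_quotient_of_fpf θ R₁ E₁ hEne hEinv (fun r hr e he => hEF he r hr) hfpf
  -- the index of `R₁`
  obtain ⟨j, hj⟩ : ∃ j, R₁.index = p ^ j := by
    obtain ⟨k, hk⟩ := IsPGroup.iff_card.1 hA
    obtain ⟨i, -, hi⟩ := (Nat.dvd_prime_pow hp.out).1 (hk ▸ R₁.index_dvd_card)
    exact ⟨i, hi⟩
  have hj1 : 1 ≤ j := by
    by_contra hj0
    have htop : R₁ = ⊤ := Subgroup.index_eq_one.1 (by
      rw [hj, show j = 0 by omega, pow_zero])
    obtain ⟨e, he, a, hae⟩ := hR₁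
    exact hae (he a (htop ▸ Subgroup.mem_top a))
  obtain ⟨a₀, ha₀⟩ : ∃ a, Subgroup.zpowers a ⊔ R₁ = ⊤ := by
    obtain ⟨c, hc⟩ := IsCyclic.exists_generator (α := A ⧸ R₁)
    obtain ⟨a, rfl⟩ := QuotientGroup.mk'_surjective R₁ c
    refine ⟨a, top_le_iff.1 fun x _ => ?_⟩
    obtain ⟨n, hn⟩ := hc (x : A ⧸ R₁)
    have hn' : ((a ^ n : A) : A ⧸ R₁) = (x : A ⧸ R₁) := hn
    have : (a ^ n)⁻¹ * x ∈ R₁ := QuotientGroup.eq.1 hn'
    have h2 := Subgroup.mul_mem_sup (Subgroup.zpow_mem_zpowers a n) this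
    rwa [mul_inv_cancel_left] at h2
  -- the vector `v`
  haveI := Fintype.ofFinite E₁
  set N : AddMonoid.End W := ∑ e : E₁, ε (e : E) with hN
  have hεN : ∀ f : E₁, N * ε (f : E) = N := fun f => by
    rw [hN, Finset.sum_mul]
    exact Fintype.sum_equiv (Equiv.mulRight f) _ _ fun e => (map_mul ε (e : E) (f : E)).symm
  have hker : (N : W →+ W).ker ≠ ⊥ := by
    intro hbot
    apply hEne
    rw [Subgroup.eq_bot_iff_forall]
    intro f hf
    apply hε
    rw [map_one]
    ext w
    have h1 : N (ε f w - w) = 0 := by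
      rw [map_sub, sub_eq_zero]
      exact DFunLike.congr_fun (hεN ⟨f, hf⟩) w
    have h2 : ε f w - w ∈ (N : W →+ W).ker := h1
    rw [hbot, AddSubgroup.mem_bot, sub_eq_zero] at h2
    exact h2
  have hNA : ∀ b, ρ b * N = N * ρ b := fun b => by
    rw [hN, Finset.mul_sum, Finset.sum_mul]
    refine Fintype.sum_bijective (fun e : E₁ => (⟨θ b (e : E), hEinv b e e.2⟩ : E₁)) ?_ _ _
      fun e => hcompat b e
    exact Finite.injective_iff_bijective.1 fun x y h =>
      Subtype.ext ((θ b).injective (congrArg Subtype.val h))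
  obtain ⟨v, hv, hv0, hvA⟩ := exists_fixed_ne_zero hA hW ρ _ hker fun b w hw => by
    show N (ρ b w) = 0
    show (N * ρ b) w = 0
    rw [← hNA]
    show ρ b (N w) = 0
    rw [show N w = 0 from hw, map_zero]
  refine ⟨R₁, j, E₁, v, hj1, hj, ⟨a₀, ha₀⟩, hEinv, fun r hr e he => hEF he r hr, hvA,
    fun a ha => ?_⟩
  haveI : Nontrivial W := ⟨⟨v, 0, hv0⟩⟩
  haveI := charP_end (p := p) hW
  by_contra hall
  push Not at hall
  -- a character of `E₁` in a field of characteristic `p`
  set K := Subring.closure (Set.range ε) with hK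
  have hKcomm : ∀ x ∈ Set.range ε, ∀ y ∈ Set.range ε, x * y = y * x := by
    rintro _ ⟨x, rfl⟩ _ ⟨y, rfl⟩
    rw [← map_mul, ← map_mul, mul_comm]
  letI : CommRing K := Subring.closureCommRingOfComm hKcomm
  let ann : Ideal K :=
    { carrier := {k | (k : AddMonoid.End W) v = 0}
      zero_mem' := rfl
      add_mem' := fun {x y} hx hy => by
        show (x : AddMonoid.End W) v + (y : AddMonoid.End W) v = 0
        rw [show (x : AddMonoid.End W) v = 0 from hx, show (y : AddMonoid.End W) v = 0 from hy,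
          add_zero]
      smul_mem' := fun c x hx => by
        show (c : AddMonoid.End W) ((x : AddMonoid.End W) v) = 0
        rw [show (x : AddMonoid.End W) v = 0 from hx, map_zero] }
  have hann : ann ≠ ⊤ := fun h => hv0 (by
    have : (1 : K) ∈ ann := h ▸ Submodule.mem_top
    exact this)
  obtain ⟨mI, hmI, hle⟩ := Ideal.exists_le_maximal ann hann
  haveI := hmI
  letI : Field (K ⧸ mI) := Ideal.Quotient.field mI
  haveI : CharP (K ⧸ mI) p := by
    refine (CharP.charP_iff_prime_eq_zero hp.out).2 ?_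
    rw [← map_natCast (Ideal.Quotient.mk mI)]
    have : ((p : ℕ) : K) = 0 := Subtype.ext (by
      rw [Subring.coe_natCast, CharP.cast_eq_zero, Subring.coe_zero])
    rw [this, map_zero]
  let χ : E₁ →* K ⧸ mI :=
    { toFun := fun e => Ideal.Quotient.mk mI ⟨ε (e : E), Subring.subset_closure ⟨e, rfl⟩⟩
      map_one' := by
        rw [← map_one (Ideal.Quotient.mk mI)]
        exact congrArg _ (Subtype.ext (map_one ε))
      map_mul' := fun x y => by
        rw [← map_mul (Ideal.Quotient.mk mI)]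
        exact congrArg _ (Subtype.ext (map_mul ε (x : E) (y : E))) }
  have hzero : ∀ k : K, (k : AddMonoid.End W) v = 0 → Ideal.Quotient.mk mI k = 0 := fun k hk =>
    Ideal.Quotient.eq_zero_iff_mem.2 (hle hk)
  have hχ : χ ≠ 1 := by
    intro h1
    have hN0 : ∑ e : E₁, χ e = 0 := by
      show ∑ e : E₁, Ideal.Quotient.mk mI _ = 0
      rw [← map_sum]
      apply hzero
      rw [AddSubmonoidClass.coe_finsetSum]
      exact hv
    rw [h1] at hN0
    simp only [MonoidHom.one_apply, Finset.sum_const, nsmul_one, Finset.card_univ] at hN0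
    rw [← Nat.card_eq_fintype_card, CharP.cast_eq_zero_iff (K ⧸ mI) p] at hN0
    have h2 := Nat.dvd_gcd (hN0.trans (Subgroup.card_subgroup_dvd_card E₁)) (dvd_refl p)
    rw [hE] at h2
    exact hp.out.one_lt.ne' (Nat.dvd_one.1 h2)
  have hgenq : ∀ y : A ⧸ R₁, y ∈ Subgroup.zpowers (a : A ⧸ R₁) := by
    intro y
    obtain ⟨z, rfl⟩ := QuotientGroup.mk'_surjective R₁ y
    have hz : z ∈ Subgroup.zpowers a ⊔ R₁ := by rw [ha]; trivial
    obtain ⟨u, hu, r, hr, rfl⟩ := Subgroup.mem_sup.1 hz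
    obtain ⟨n, rfl⟩ := hu
    refine ⟨n, ?_⟩
    show (a : A ⧸ R₁) ^ n = ((a ^ n * r : A) : A ⧸ R₁)
    rw [QuotientGroup.mk_mul_of_mem _ hr, QuotientGroup.mk_zpow]
  have hord : orderOf (a : A ⧸ R₁) = p ^ j := by
    rw [orderOf_eq_card_of_forall_mem_zpowers hgenq, ← R₁.index_eq_card, hj]
  obtain ⟨e, he⟩ := exists_sum_ne_zero hp3 θ E₁ hEinv R₁ hfpf (a := a) (q := p ^ j)
    (fun n hn => hord ▸ orderOf_dvd_of_pow_eq_one
      (by rw [← QuotientGroup.mk_pow, QuotientGroup.eq_one_iff]; exact hn))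
    (pow_ne_zero _ hp.out.ne_zero)
    (Nat.Coprime.pow_left j ((Nat.coprime_primes hp.out Nat.prime_two).2 (by omega))) χ hχ
  apply he
  show ∑ i ∈ Finset.range (p ^ j), (Ideal.Quotient.mk mI _ + Ideal.Quotient.mk mI _) = 0
  simp only [← map_add, ← map_sum]
  apply hzero
  rw [AddSubmonoidClass.coe_finsetSum, ← hall e e.2, sub_one_pow_eq_sum]
  show (∑ i ∈ Finset.range (p ^ j), _ : AddMonoid.End W) v =
    (∑ i ∈ Finset.range (p ^ j), ρ a ^ i : AddMonoid.End W) _
  rw [sum_end_apply, sum_end_apply]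
  refine Finset.sum_congr rfl fun i _ => ?_
  rw [← map_pow]
  have key : ∀ f : E, ρ (a ^ i) (ε f v) = ε (θ (a ^ i) f) v := fun f => by
    have := DFunLike.congr_fun (hcompat (a ^ i) f) v
    rw [show (ρ (a ^ i) * ε f) v = ρ (a ^ i) (ε f v) from rfl] at this
    rw [this]
    show ε _ (ρ (a ^ i) v) = _
    rw [hvA]
  rw [map_add, key, key]
  rfl

end Cfsg.Agent.ThompsonFive
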