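import Cfsg.Agent.ThompsonFive.Offender
import Cfsg.Agent.ThompsonFive.CharSum
import Cfsg.Agent.LocalP.ThompsonANPC
import Cfsg.Agent.PGroup.ClassTwo

/-!
# For `p ≥ 5` there is no counterexample of least order to the `N(J)` criterion
-/

set_option autoImplicit false

open scoped commutatorElement IsMulCommutative

namespace Cfsg.Agent.ThompsonFive

universe u

variable {p : ℕ} [hp : Fact p.Prime]

theorem commute_conj_pair {M : Type*} [Group M] (φ : M → M → M)
    (hL : ∀ x y z, φ (x * y) z = φ x z * φ y z) (hR : ∀ x y z, φ x (y * z) = φ x y * φ x z)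
    (x₁ x₂ y₁ y₂ : M) :
    φ (x₁ * x₂) (y₁ * y₂) = φ x₁ y₁ * φ x₁ y₂ * (φ x₂ y₁ * φ x₂ y₂) := by
  rw [hL, hR, hR]

/-- Conjugation on an invariant abelian subgroup, additively. -/
noncomputable def conjEnd {X : Type*} [Group X] (A B : Subgroup X) [IsMulCommutative B]
    (h : ∀ a ∈ A, ∀ b ∈ B, a * b * a⁻¹ ∈ B) :
    A →* AddMonoid.End (Additive B) where
  toFun a := MonoidHom.toAdditive
    { toFun := fun b => (⟨(a : X) * b * (a : X)⁻¹, h a a.2 b b.2⟩ : B)
      map_one' := Subtype.ext (by simp)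
      map_mul' := fun x y => Subtype.ext (by simp [mul_assoc]) }
  map_one' := AddMonoidHom.ext fun x => by
    apply Additive.toMul.injective
    apply Subtype.ext
    show ((1 : A) : X) * ((Additive.toMul x : B) : X) * ((1 : A) : X)⁻¹ = _
    rw [Subgroup.coe_one, one_mul, inv_one, mul_one]; rfl
  map_mul' a b := AddMonoidHom.ext fun x => by
    apply Additive.toMul.injective
    apply Subtype.ext
    show ((a * b : A) : X) * ((Additive.toMul x : B) : X) * ((a * b : A) : X)⁻¹ =
      (a : X) * ((b : X) * ((Additive.toMul x : B) : X) * (b : X)⁻¹) * (a : X)⁻¹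
    simp [mul_assoc]

/-- An abelian subgroup of largest order has no offender. -/
theorem hyp_conjEnd {X : Type*} [Group X] [Finite X] {P A B : Subgroup X}
    [IsMulCommutative A] [IsMulCommutative B] (hA : A ∈ Modules.maxAbIn P) (hBP : B ≤ P)
    (h : ∀ a ∈ A, ∀ b ∈ B, a * b * a⁻¹ ∈ B) (hexp : ∀ b ∈ B, b ^ p = 1) :
    Hyp p (conjEnd A B h) := by
  refine ⟨fun x => Additive.toMul.injective (Subtype.ext (hexp _ (Additive.toMul x).2)),
    fun U R _ hR => ?_⟩
  set U' : Subgroup X := (AddSubgroup.toSubgroup' U).map B.subtype with hU'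
  set R' : Subgroup X := R.map A.subtype with hR'
  have hcomm : ∀ r ∈ R', ∀ x ∈ U', r * x = x * r := by
    rintro _ ⟨r, hr, rfl⟩ _ ⟨x, hx, rfl⟩
    have h1 := congrArg (fun y : Additive B => ((Additive.toMul y : B) : X))
      (hR hr (Additive.ofMul x) hx)
    exact mul_inv_eq_iff_eq_mul.1 h1
  have hR'c : IsMulCommutative R' := Subgroup.le_centralizer_iff_isMulCommutative.1 (by
    intro a ha
    refine Subgroup.mem_centralizer_iff.2 fun b hb => ?_
    obtain ⟨a, -, rfl⟩ := ha
    obtain ⟨b, -, rfl⟩ := hb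
    exact congrArg Subtype.val (mul_comm' b a))
  have hRU : R' ≤ Subgroup.centralizer (U' : Set X) := fun r hr =>
    Subgroup.mem_centralizer_iff.2 fun x hx => (hcomm r hr x hx).symm
  have hsupc : IsMulCommutative ↥(R' ⊔ U') := by
    refine Subgroup.le_centralizer_iff_isMulCommutative.1 (sup_le ?_ ?_) <;>
      rw [Subgroup.le_centralizer_iff] <;> refine sup_le ?_ ?_
    · exact Subgroup.le_centralizer_iff_isMulCommutative.2 hR'c
    · exact Subgroup.le_centralizer_iff.1 hRU
    · exact hRU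
    · intro x hx
      refine Subgroup.mem_centralizer_iff.2 fun y hy => ?_
      obtain ⟨x, -, rfl⟩ := hx
      obtain ⟨y, -, rfl⟩ := hy
      exact congrArg Subtype.val (mul_comm' y x)
  have h1 := hA.2.2 _ (sup_le ((Subgroup.map_subtype_le R).trans hA.1)
    ((Subgroup.map_subtype_le _).trans hBP)) hsupc
  have h2 := Modules.card_sup_mul_card_inf
    (hRU.trans (Subgroup.centralizer_le_normalizer (U' : Set X)))
  have h3 : Nat.card ↥(R' ⊓ U') ≤ Nat.card ↥(U ⊓ fixedBy (conjEnd A B h) ⊤) := by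
    refine Nat.card_le_card_of_injective
      (fun x => ⟨Additive.ofMul ⟨(x : X), Subgroup.map_subtype_le _ x.2.2⟩, ?_, ?_⟩)
      (fun x y hxy => ?_)
    · obtain ⟨b, hb, hbx⟩ := x.2.2
      have : (⟨(x : X), Subgroup.map_subtype_le _ x.2.2⟩ : B) = b := Subtype.ext hbx.symm
      rw [this]
      exact hb
    · intro r _
      apply Additive.toMul.injective
      apply Subtype.ext
      show (r : X) * (x : X) * (r : X)⁻¹ = x
      have hxA : (x : X) ∈ A := Subgroup.map_subtype_le _ x.2.1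
      have := congrArg Subtype.val (mul_comm' r (⟨(x : X), hxA⟩ : A))
      rw [Subgroup.coe_mul, Subgroup.coe_mul] at this
      rw [this, mul_inv_cancel_right]
    · have := congrArg (fun z : ↥(U ⊓ fixedBy (conjEnd A B h) ⊤) =>
        ((Additive.toMul (z : Additive B) : B) : X)) hxy
      exact Subtype.ext this
  have hcR : Nat.card R = Nat.card R' :=
    Nat.card_congr (R.equivMapOfInjective _ A.subtype_injective).toEquiv
  have hcU : Nat.card U = Nat.card U' :=
    Nat.card_congr ((AddSubgroup.toSubgroup' U).equivMapOfInjective _ B.subtype_injective).toEquiv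
  rw [hcR, hcU, ← h2]
  exact Nat.mul_le_mul h1 h3

/-- The key configuration does not exist. -/
theorem reduced_false (hp5 : 5 ≤ p) (X : Type u) [Group X] [Finite X] (P : Sylow p X)
    (K : Subgroup X) (h : H4.ReducedCase (LocalP.thompsonAFunctor p) False P K) : False := by
  classical
  haveI := h.normal
  set Q := Cfsg.pCore p X with hQdef
  have hQp : IsPGroup p Q := Cores.pCore_isPGroup
  have hQP : Q ≤ (P : Subgroup X) := Cores.pCore_le_sylow P
  have hJ : ¬ (⊤ : Subgroup X) ≤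
      Subgroup.normalizer (Cfsg.thompsonSubgroupAOf (P : Subgroup X) : Set X) := by
    intro hle
    have h1 := h.hyp.1
    change Cfsg.HasNormalPComplement p (Subgroup.normalizer
      (Cfsg.thompsonSubgroupAOf (P : Subgroup X) : Set X)) at h1
    rw [top_le_iff.1 hle, H4.npc_top_iff] at h1
    exact h.not_npc h1
  obtain ⟨A, hA, hAQ⟩ := LocalP.exists_maxAb_not_le_core (p := p) (H := (⊤ : Subgroup X))
    (T := (P : Subgroup X)) (by rw [LocalP.pCoreOf_top]; exact hQP) hJ
  rw [LocalP.pCoreOf_top] at hAQ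
  haveI hAc : IsMulCommutative A := hA.2.1
  have hAp : IsPGroup p A := P.2.to_le hA.1
  -- the residual
  set K₀ := Cfsg.pResidual p X with hK₀
  have hK₀K : K₀ ≤ K := by
    refine Transfer.pResidual_le_of_isPGroup_quotient K ?_
    refine (P.2.map (QuotientGroup.mk' K)).of_surjective
      ((P : Subgroup X).map (QuotientGroup.mk' K)).subtype fun y => ?_
    obtain ⟨x, rfl⟩ := QuotientGroup.mk'_surjective K y
    have hx : x ∈ K ⊔ (P : Subgroup X) := h.sup_sylow ▸ Subgroup.mem_top x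
    rw [← SetLike.mem_coe, Subgroup.normal_mul] at hx
    obtain ⟨k, hk, s, hs, rfl⟩ := hx
    refine ⟨⟨QuotientGroup.mk' K s, ⟨s, hs, rfl⟩⟩, ?_⟩
    show QuotientGroup.mk' K s = QuotientGroup.mk' K (k * s)
    rw [map_mul, show QuotientGroup.mk' K k = 1 from (QuotientGroup.eq_one_iff k).2 hk, one_mul]
  have hKK₀ : K ≤ K₀ ⊔ Q := by
    intro k hk
    obtain ⟨a, ha⟩ := Transfer.exists_pow_mem_pResidual (p := p) k
    have hm : k ^ Q.relIndex K ∈ Q := by
      have := Subgroup.pow_index_mem (Q.subgroupOf K) (⟨k, hk⟩ : K)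
      simpa [Subgroup.mem_subgroupOf, Subgroup.relIndex] using this
    have hco : Nat.Coprime (p ^ a) (Q.relIndex K) :=
      ((hp.out.coprime_iff_not_dvd).2 h.coprime).pow_left a
    have hb := Nat.gcd_eq_gcd_ab (p ^ a) (Q.relIndex K)
    rw [hco] at hb
    have hk1 : k = k ^ ((1 : ℕ) : ℤ) := by simp
    rw [hk1, hb, zpow_add, zpow_mul, zpow_mul, zpow_natCast, zpow_natCast]
    exact Subgroup.mul_mem_sup (K₀.zpow_mem ha _) (Q.zpow_mem hm _)
  have hK₀cent : ¬ K₀ ≤ Subgroup.centralizer (Q : Set X) := fun hc =>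
    h.core_ne (le_antisymm (hKK₀.trans (sup_le (hc.trans h.centralizer_le) le_rfl)) h.core_le)
  -- `C` minimal among the normal subgroups of `Q` not centralised by `K₀`
  obtain ⟨C, ⟨hCn, hCQ, hCK⟩, hCmin⟩ := Set.exists_min_image
    {D : Subgroup X | D.Normal ∧ D ≤ Q ∧ ¬ K₀ ≤ Subgroup.centralizer (D : Set X)}
    (fun D => Nat.card D) (Set.toFinite _) ⟨Q, inferInstance, le_rfl, hK₀cent⟩
  haveI := hCn
  have hCp : IsPGroup p C := hQp.to_le hCQ
  have hCP : C ≤ (P : Subgroup X) := hCQ.trans hQP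
  set C₁ := C ⊓ Subgroup.centralizer (K₀ : Set X) with hC₁def
  haveI hC₁n : C₁.Normal := inferInstance
  have hprop : ∀ D : Subgroup X, D.Normal → D ≤ C → D ≠ C → D ≤ C₁ := by
    intro D hD hDC hne
    refine le_inf hDC (Subgroup.le_centralizer_iff.1 ?_)
    by_contra hcon
    exact hne (Subgroup.eq_of_le_of_card_ge hDC (hCmin D ⟨hD, hDC.trans hCQ, hcon⟩))
  have hCK₀ : ⁅C, K₀⁆ = C := by
    by_contra hne
    have hle : ⁅C, K₀⁆ ≤ C₁ := hprop _ inferInstance (Subgroup.commutator_le_left C K₀) hne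
    refine hCK ((Subgroup.closure_le _).2 fun g hg => ?_)
    have hgK : g ∈ K₀ := Transfer.mem_pResidual_of_coprime hg
    obtain ⟨c, hc⟩ := IsPGroup.iff_card.1 hCp
    refine Coprime.le_centralizer_of_stabilizes (A := Subgroup.zpowers g) (K := C) (N := C₁)
      Subgroup.le_normalizer_of_normal ?_
      ((Subgroup.commutator_mono le_rfl (Subgroup.zpowers_le.2 hgK)).trans hle) ?_
      (Subgroup.mem_zpowers g)
    · rw [Nat.card_zpowers, hc]
      exact Nat.Coprime.pow_right c hg
    · rw [Subgroup.le_centralizer_iff]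
      exact inf_le_right.trans (Subgroup.centralizer_le (Subgroup.zpowers_le.2 hgK))
  have hC₁K : ∀ k ∈ K₀, ∀ z ∈ C₁, k * z * k⁻¹ = z := fun k hk z hz => by
    rw [Subgroup.mem_centralizer_iff.1 hz.2 k hk, mul_inv_cancel_right]
  have hCne : C ≠ ⊥ := fun h0 => hCK (by
    intro x _
    rw [h0]
    exact Subgroup.mem_centralizer_iff.2 fun y hy => by
      rw [Subgroup.coe_bot, Set.mem_singleton_iff] at hy
      rw [hy, one_mul, mul_one])
  have hCQ₁ : ⁅C, Q⁆ ≤ C₁ := by
    refine hprop _ inferInstance (Subgroup.commutator_le_left C Q) (ne_of_lt ?_)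
    refine Modules.commutator_lt_of_isPGroup hCp hCne Subgroup.le_normalizer_of_normal
      fun a ha => ?_
    obtain ⟨k, hk⟩ := hQp ⟨a, ha⟩
    refine ⟨k, ?_⟩
    rw [show a ^ p ^ k = 1 from congrArg Subtype.val hk]
    exact one_mem _
  have hC₁cent : ∀ z ∈ C₁, ∀ c ∈ C, c * z = z * c := by
    have h0 : ⁅⁅C, K₀⁆, C₁⁆ = ⊥ := by
      refine Subgroup.commutator_commutator_eq_bot_of_rotate ?_ ?_
      · have : ⁅K₀, C₁⁆ = ⊥ := Subgroup.commutator_eq_bot_iff_le_centralizer.2
          (Subgroup.le_centralizer_iff.1 inf_le_right)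
        rw [this, Subgroup.commutator_bot_left]
      · refine Subgroup.commutator_eq_bot_iff_le_centralizer.2 ?_
        exact (Subgroup.commutator_le_left C₁ C).trans inf_le_right
    rw [hCK₀] at h0
    intro z hz c hc
    exact (Subgroup.mem_centralizer_iff.1
      (Subgroup.commutator_eq_bot_iff_le_centralizer.1 h0 hc) z hz).symm
  -- `C` has class at most two and exponent `p`
  set N := C₁.subgroupOf C with hN
  haveI hNn : N.Normal := Subgroup.Normal.subgroupOf hC₁n C
  have hder : ∀ x y : C, ⁅x, y⁆ ∈ N := fun x y =>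
    hCQ₁ (Subgroup.commutator_mem_commutator x.2 (hCQ y.2))
  have hNcent : N ≤ Subgroup.center C := fun z hz =>
    Subgroup.mem_center_iff.2 fun c => Subtype.ext (hC₁cent z hz c c.2)
  have hclass : commutator C ≤ Subgroup.center C := by
    rw [commutator_def, Subgroup.commutator_le]
    exact fun x _ y _ => hNcent (hder x y)
  letI : CommGroup (C ⧸ N) :=
    { (inferInstance : Group (C ⧸ N)) with
      mul_comm := fun a b => by
        obtain ⟨x, rfl⟩ := QuotientGroup.mk'_surjective N a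
        obtain ⟨y, rfl⟩ := QuotientGroup.mk'_surjective N b
        rw [← commutatorElement_eq_one_iff_mul_comm, ← map_commutatorElement]
        exact (QuotientGroup.eq_one_iff _).2 (hder x y) }
  set π := QuotientGroup.mk' N with hπ
  have hπ1 : ∀ x : C, π x = 1 ↔ (x : X) ∈ C₁ := fun x => QuotientGroup.eq_one_iff x
  have hpowN : ∀ c : C, c ^ p ∈ N := by
    let D : Subgroup X :=
      C₁ ⊔ Subgroup.closure {x | ∃ c ∈ C, x = c ^ p}
    have hDC : D ≤ C := sup_le inf_le_left ((Subgroup.closure_le _).2 (by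
      rintro _ ⟨c, hc, rfl⟩; exact pow_mem hc p))
    haveI : (Subgroup.closure {x : X | ∃ c ∈ C, x = c ^ p}).Normal := ⟨fun n hn g =>
      (Subgroup.closure_le ((Subgroup.closure {x : X | ∃ c ∈ C, x = c ^ p}).comap
        (MulAut.conj g).toMonoidHom)).2 (by
        rintro _ ⟨c, hc, rfl⟩
        exact Subgroup.subset_closure ⟨g * c * g⁻¹, hCn.conj_mem c hc g, conj_pow.symm⟩) hn⟩
    have hDn : D.Normal := Subgroup.sup_normal _ _
    have hne : D ≠ C := by
      intro heq
      have hsurj : Function.Surjective (powMonoidHom p : C ⧸ N →* C ⧸ N) := by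
        rw [← MonoidHom.range_eq_top, eq_top_iff]
        intro y _
        obtain ⟨x, rfl⟩ := QuotientGroup.mk'_surjective N y
        have hxD : (x : X) ∈ D := heq.symm ▸ x.2
        have hsub : D ≤ ((powMonoidHom p : C ⧸ N →* C ⧸ N).range.comap π).map C.subtype := by
          refine sup_le (fun z hz => ⟨⟨z, hz.1⟩, Subgroup.mem_comap.2 ?_, rfl⟩)
            ((Subgroup.closure_le _).2 ?_)
          · rw [(hπ1 ⟨z, hz.1⟩).2 hz]
            exact one_mem _
          · rintro _ ⟨c, hc, rfl⟩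
            exact ⟨⟨c, hc⟩ ^ p, ⟨π ⟨c, hc⟩, (map_pow π _ p).symm⟩, rfl⟩
        obtain ⟨x', hx', hxx⟩ := hsub hxD
        rwa [show x' = x from Subtype.ext hxx] at hx'
      have hinj := Finite.injective_iff_surjective.2 hsurj
      have htriv : ∀ y : C ⧸ N, y = 1 := by
        intro y
        obtain ⟨k, hk⟩ := (hCp.to_quotient N) y
        induction k generalizing y with
        | zero => simpa using hk
        | succ k ih =>
          rw [pow_succ', pow_mul] at hk
          exact hinj (show y ^ p = (1 : C ⧸ N) ^ p by rw [one_pow]; exact ih _ hk)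
      apply hCK
      refine Subgroup.le_centralizer_iff.1 fun c hc => ?_
      exact ((hπ1 ⟨c, hc⟩).1 (htriv _)).2
    exact fun c => hprop D hDn hDC hne
      (Subgroup.mem_sup_right (Subgroup.subset_closure ⟨c, c.2, rfl⟩))
  have hodd : Odd p := hp.out.odd_of_ne_two (by omega)
  have hexp : ∀ c ∈ C, c ^ p = 1 := by
    have hmul : ∀ x y : C, (x * y) ^ p = x ^ p * y ^ p := fun x y =>
      PGroup.mul_pow_of_classTwo hclass hodd (hNcent (hpowN x))
    let S : Subgroup C :=
      { carrier := {x | x ^ p = 1}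
        one_mem' := one_pow p
        mul_mem' := fun {x y} hx hy => by
          show (x * y) ^ p = 1
          rw [hmul, show x ^ p = 1 from hx, show y ^ p = 1 from hy, one_mul]
        inv_mem' := fun {x} hx => by
          show x⁻¹ ^ p = 1
          rw [inv_pow, show x ^ p = 1 from hx, inv_one] }
    have hle : C ≤ S.map C.subtype := by
      conv_lhs => rw [← hCK₀]
      refine Subgroup.commutator_le.2 fun c hc k hk => ?_
      have hk' : k * c⁻¹ * k⁻¹ ∈ C := hCn.conj_mem _ (inv_mem hc) k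
      refine ⟨⟨c, hc⟩ * ⟨k * c⁻¹ * k⁻¹, hk'⟩, ?_, ?_⟩
      · show _ ^ p = 1
        rw [hmul]
        apply Subtype.ext
        have hz : (c⁻¹) ^ p ∈ C₁ := hpowN ⟨c⁻¹, inv_mem hc⟩
        show c ^ p * (k * c⁻¹ * k⁻¹) ^ p = 1
        rw [conj_pow, hC₁K k hk _ hz, inv_pow, mul_inv_cancel]
      · show c * (k * c⁻¹ * k⁻¹) = ⁅c, k⁆
        simp [commutatorElement_def, mul_assoc]
    intro c hc
    obtain ⟨x, hx, rfl⟩ := hle hc
    exact congrArg Subtype.val hx
  -- the action of `X` on `C / C₁`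
  have hNinv : ∀ (g : X) (x : C), (x : X) ∈ C₁ → g * x * g⁻¹ ∈ C₁ := fun g x hx =>
    hC₁n.conj_mem _ hx g
  let cj : X →* MulAut C := MulAut.conjNormal
  have hcj : ∀ g (x : C), ((cj g x : C) : X) = g * x * g⁻¹ := fun g x =>
    MulAut.conjNormal_apply g x
  let uf : X → (C ⧸ N →* C ⧸ N) := fun g =>
    QuotientGroup.map N N (cj g).toMonoidHom fun x hx => by
      show ((cj g x : C) : X) ∈ C₁
      rw [hcj]; exact hNinv g x hx
  have huf : ∀ g x, uf g (π x) = π (cj g x) := fun g x => rfl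
  let u : X →* MulAut (C ⧸ N) :=
    MonoidHom.mk' (fun g => MonoidHom.toMulEquiv (uf g) (uf g⁻¹)
      (by
        ext x
        show uf g⁻¹ (uf g (π x)) = π x
        rw [huf, huf, ← MulAut.mul_apply, ← map_mul, inv_mul_cancel, map_one]; rfl)
      (by
        ext x
        show uf g (uf g⁻¹ (π x)) = π x
        rw [huf, huf, ← MulAut.mul_apply, ← map_mul, mul_inv_cancel, map_one]; rfl))
      fun g g' => MulEquiv.ext fun y => by
        obtain ⟨x, rfl⟩ := QuotientGroup.mk'_surjective N y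
        show uf (g * g') (π x) = uf g (uf g' (π x))
        rw [huf, huf, huf, map_mul]; rfl
  have hu : ∀ g (x : C), u g (π x) = π (cj g x) := huf
  have hu' : ∀ g (y : C ⧸ N), u g y = uf g y := fun _ _ => rfl
  have hker : ∀ g, u g = 1 ↔ ∀ x : C, ⁅g, (x : X)⁆ ∈ C₁ := by
    intro g
    refine ⟨fun h1 x => ?_, fun h1 => MulEquiv.ext fun y => ?_⟩
    · have h2 : π (cj g x) = π x := by rw [← hu, h1]; rfl
      have h3 : π (cj g x * x⁻¹) = 1 := by rw [map_mul, map_inv, h2, mul_inv_cancel]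
      have h4 := (hπ1 _).1 h3
      rw [Subgroup.coe_mul, hcj, Subgroup.coe_inv] at h4
      exact h4
    · obtain ⟨x, rfl⟩ := QuotientGroup.mk'_surjective N y
      rw [hu]
      show π (cj g x) = π x
      rw [← div_eq_one, div_eq_mul_inv, ← map_inv, ← map_mul, hπ1, Subgroup.coe_mul, hcj,
        Subgroup.coe_inv]
      exact h1 x
  have hQker : Q ≤ u.ker := fun q hq => (hker q).2 fun x => by
    have h1 : ⁅(x : X), q⁆ ∈ C₁ := hCQ₁ (Subgroup.commutator_mem_commutator x.2 hq)
    rw [← commutatorElement_inv]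
    exact inv_mem h1
  have hKker : ¬ K ≤ u.ker := by
    intro hle
    have h1 : ⁅C, K₀⁆ ≤ C₁ := Subgroup.commutator_le.2 fun c hc k hk => by
      rw [← commutatorElement_inv]
      exact inv_mem ((hker k).1 (hle (hK₀K hk)) ⟨c, hc⟩)
    rw [hCK₀] at h1
    exact hCK (Subgroup.le_centralizer_iff.1 (h1.trans inf_le_right))
  have hkerQ : u.ker = Q := h.eq_core u.ker inferInstance hQker hKker
  have hmapK : K.map u = K₀.map u := by
    refine le_antisymm ?_ (Subgroup.map_mono hK₀K)
    refine (Subgroup.map_mono hKK₀).trans (le_of_eq ?_)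
    rw [Subgroup.map_sup, (Subgroup.map_eq_bot_iff Q).2 hQker, sup_bot_eq]
  -- the `p'`-group `E`
  let E : Subgroup (MulAut (C ⧸ N)) := K.map u
  have hEcomm : ∀ x y : E, x * y = y * x := by
    rintro ⟨_, k, hk, rfl⟩ ⟨_, l, hl, rfl⟩
    apply Subtype.ext
    show u k * u l = u l * u k
    rw [← commutatorElement_eq_one_iff_mul_comm, ← map_commutatorElement]
    exact hQker (h.commutator_le (Subgroup.commutator_mem_commutator hk hl))
  letI : CommGroup E := { (inferInstance : Group E) with mul_comm := hEcomm }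
  have hEcard : (Nat.card E).Coprime p := by
    have h1 : Nat.card E = Q.relIndex K := by
      show Nat.card (K.map u) = _
      rw [← hkerQ, Subgroup.relIndex_ker]
    rw [h1]
    exact ((hp.out.coprime_iff_not_dvd).2 h.coprime).symm
  let ε : E →* AddMonoid.End (Additive (C ⧸ N)) :=
    { toFun := fun e => MonoidHom.toAdditive (e : MulAut (C ⧸ N)).toMonoidHom
      map_one' := rfl
      map_mul' := fun e f => rfl }
  have hεapp : ∀ (e : E) (y : C ⧸ N),
      ε e (Additive.ofMul y) = Additive.ofMul ((e : MulAut (C ⧸ N)) y) := fun _ _ => rfl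
  have hεinj : Function.Injective ε := fun e f hef => Subtype.ext (MulEquiv.ext fun y =>
    Additive.ofMul.injective (DFunLike.congr_fun hef (Additive.ofMul y)))
  let ρ : A →* AddMonoid.End (Additive (C ⧸ N)) :=
    { toFun := fun a => MonoidHom.toAdditive (u a).toMonoidHom
      map_one' := by
        apply AddMonoidHom.ext
        intro y
        show Additive.ofMul (u ((1 : A) : X) (Additive.toMul y)) = y
        rw [Subgroup.coe_one, map_one]; rfl
      map_mul' := fun a b => by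
        apply AddMonoidHom.ext
        intro y
        show Additive.ofMul (u ((a * b : A) : X) (Additive.toMul y)) = _
        rw [Subgroup.coe_mul, map_mul]; rfl }
  have hEnorm : ∀ (g : X) (e : E), u g * (e : MulAut (C ⧸ N)) * (u g)⁻¹ ∈ E := by
    rintro g ⟨_, k, hk, rfl⟩
    exact ⟨g * k * g⁻¹, h.normal.conj_mem k hk g, by rw [map_mul, map_mul, map_inv]⟩
  let θ : A →* MulAut E := MonoidHom.mk' (fun a =>
    { toFun := fun e => ⟨u a * e * (u a)⁻¹, hEnorm a e⟩
      invFun := fun e => ⟨u (a : X)⁻¹ * e * (u (a : X)⁻¹)⁻¹, hEnorm _ e⟩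
      left_inv := fun e => Subtype.ext (by simp [mul_assoc])
      right_inv := fun e => Subtype.ext (by simp [mul_assoc])
      map_mul' := fun e f => Subtype.ext (by simp [mul_assoc]) })
    fun a b => MulEquiv.ext fun e => Subtype.ext (by
      show u ((a * b : A) : X) * (e : MulAut (C ⧸ N)) * (u ((a * b : A) : X))⁻¹ =
        u a * (u b * (e : MulAut (C ⧸ N)) * (u b)⁻¹) * (u a)⁻¹
      rw [Subgroup.coe_mul, map_mul, mul_inv_rev]; simp only [mul_assoc])
  have hθapp : ∀ (a : A) (e : E), ((θ a e : E) : MulAut (C ⧸ N)) = u a * e * (u a)⁻¹ :=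
    fun _ _ => rfl
  have hcompat : ∀ a e, ρ a * ε e = ε (θ a e) * ρ a := by
    intro a e
    apply AddMonoidHom.ext
    intro y
    show Additive.ofMul ((u a * (e : MulAut (C ⧸ N))) (Additive.toMul y)) =
      Additive.ofMul ((((θ a e : E) : MulAut (C ⧸ N)) * u a) (Additive.toMul y))
    rw [hθapp, inv_mul_cancel_right]
  have hθ : θ ≠ 1 := by
    intro h1
    apply hAQ
    intro a ha
    refine h.faithful a (hA.1 ha) fun k hk => ?_
    show ⁅a, k⁆ ∈ Q
    rw [← hkerQ, MonoidHom.mem_ker, map_commutatorElement, commutatorElement_eq_one_iff_mul_comm]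
    have h2 := congrArg (fun e : E => (e : MulAut (C ⧸ N)))
      (DFunLike.congr_fun (DFunLike.congr_fun h1 ⟨a, ha⟩) ⟨u k, k, hk, rfl⟩)
    exact mul_inv_eq_iff_eq_mul.1 h2
  have hW : ∀ w : Additive (C ⧸ N), p • w = 0 := fun w => by
    apply Additive.toMul.injective
    obtain ⟨x, hx⟩ := QuotientGroup.mk'_surjective N (Additive.toMul w)
    show Additive.toMul w ^ p = 1
    rw [← hx, ← map_pow]
    exact (QuotientGroup.eq_one_iff _).2 (hpowN x)
  obtain ⟨R₁, j, E₁, v, hj, hidx, hgen, hE₁inv, hR₁E, hvA, hfull⟩ :=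
    exists_charSum (by omega) hAp hW hEcard ρ ε hεinj θ hcompat hθ
  obtain ⟨c, hc⟩ := QuotientGroup.mk'_surjective N (Additive.toMul v)
  have hcA : ∀ a : A, u a (π c) = π c := fun a => by
    have h1 := congrArg Additive.toMul (hvA a)
    rw [← hc] at h1
    show u a (π c) = π c
    rw [show π c = Additive.toMul v from hc] at h1 ⊢
    exact h1
  -- the abelian subgroup `B`
  let gen : E → C ⧸ N := fun e =>
    (e : MulAut (C ⧸ N)) (π c) * ((e⁻¹ : E) : MulAut (C ⧸ N)) (π c)
  let S : Set X := {g | ∃ hg : g ∈ C, g ∈ C₁ ∨ ∃ e ∈ E₁, π ⟨g, hg⟩ = gen e}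
  have hScomm : ∀ g ∈ S, ∀ g' ∈ S, g' * g = g * g' := by
    -- commutators with the central `C₁` vanish, and are bilinear on `C`
    let β : C → C → C := fun x y => ⁅x, y⁆
    have hβc : ∀ x y, β x y ∈ Subgroup.center C := fun x y => hNcent (hder x y)
    have hβL : ∀ x y z, β (x * y) z = β x z * β y z := fun x y z => by
      show ⁅x * y, z⁆ = ⁅x, z⁆ * ⁅y, z⁆
      rw [Modules.commutatorElement_mul_left]
      have := Subgroup.mem_center_iff.1 (hβc y z) x
      change x * ⁅y, z⁆ = ⁅y, z⁆ * x at this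
      rw [this, mul_inv_cancel_right]
      exact (Subgroup.mem_center_iff.1 (hβc y z) _).symm
    have hβR : ∀ x y z, β x (y * z) = β x y * β x z := fun x y z => by
      show ⁅x, y * z⁆ = ⁅x, y⁆ * ⁅x, z⁆
      rw [Modules.commutatorElement_mul_right]
      have := Subgroup.mem_center_iff.1 (hβc x z) y
      change y * ⁅x, z⁆ = ⁅x, z⁆ * y at this
      rw [this, mul_inv_cancel_right]
    have hβL0 : ∀ x y z, π x = π y → β x z = β y z := fun x y z hxy => by
      have hm : x⁻¹ * y ∈ N := QuotientGroup.eq.1 hxy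
      have hz : β (x⁻¹ * y) z = 1 := commutatorElement_eq_one_iff_mul_comm.2
        (Subgroup.mem_center_iff.1 (hNcent hm) z).symm
      have h2 := hβL x (x⁻¹ * y) z
      rw [hz, mul_one, mul_inv_cancel_left] at h2
      exact h2.symm
    have hβR0 : ∀ x y z, π y = π z → β x y = β x z := fun x y z hyz => by
      show ⁅x, y⁆ = ⁅x, z⁆
      rw [← commutatorElement_inv y x, ← commutatorElement_inv z x]
      exact congrArg (fun t => t⁻¹) (hβL0 y z x hyz)
    have hβconj : ∀ k ∈ K₀, ∀ x y, β (cj k x) (cj k y) = β x y := fun k hk x y => by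
      show ⁅cj k x, cj k y⁆ = ⁅x, y⁆
      rw [← map_commutatorElement (cj k)]
      apply Subtype.ext
      rw [hcj]
      exact hC₁K k hk _ (hder x y)
    let φ : X → C := fun k => β c (cj k c)
    have hφu : ∀ k l, u k = u l → φ k = φ l := fun k l hkl =>
      hβR0 _ _ _ (by rw [← hu, ← hu, hkl])
    have hcjmul : ∀ g g' x, cj g (cj g' x) = cj (g * g') x := fun g g' x => by
      rw [map_mul]; rfl
    have hφinv : ∀ k ∈ K₀, φ k⁻¹ = (φ k)⁻¹ := fun k hk => by
      show β c (cj k⁻¹ c) = (β c (cj k c))⁻¹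
      rw [← hβconj k hk c (cj k⁻¹ c), hcjmul, mul_inv_cancel, map_one]
      exact (commutatorElement_inv c (cj k c)).symm
    have hpair : ∀ k ∈ K₀, ∀ l ∈ K₀, β (cj k c) (cj l c) = φ (k⁻¹ * l) := fun k hk l _ => by
      show _ = β c (cj (k⁻¹ * l) c)
      rw [← hβconj k hk c (cj (k⁻¹ * l) c), hcjmul, mul_inv_cancel_left]
    have hcommu : ∀ k ∈ K₀, ∀ l ∈ K₀, u (k * l) = u (l * k) := fun k hk l hl => by
      rw [map_mul, map_mul]
      exact congrArg Subtype.val (hEcomm ⟨u k, k, hK₀K hk, rfl⟩ ⟨u l, l, hK₀K hl, rfl⟩)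
    have hrep : ∀ e : E, ∃ k ∈ K₀, gen e = π (cj k c * cj k⁻¹ c) := by
      intro e
      obtain ⟨k, hk, hke⟩ := Subgroup.mem_map.1 (hmapK ▸ e.2 : (e : MulAut (C ⧸ N)) ∈ K₀.map u)
      refine ⟨k, hk, ?_⟩
      show (e : MulAut (C ⧸ N)) (π c) * ((e : MulAut (C ⧸ N))⁻¹) (π c) = _
      rw [← hke, map_mul π, ← map_inv u, hu, hu]
    have hmain : ∀ k ∈ K₀, ∀ l ∈ K₀,
        β (cj k c * cj k⁻¹ c) (cj l c * cj l⁻¹ c) = 1 := by
      intro k hk l hl
      rw [commute_conj_pair β hβL hβR, hpair k hk l hl, hpair k hk l⁻¹ (inv_mem hl),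
        hpair _ (inv_mem hk) l hl, hpair _ (inv_mem hk) _ (inv_mem hl), inv_inv]
      have h1 : φ (k⁻¹ * l⁻¹) = (φ (k * l))⁻¹ := by
        rw [← mul_inv_rev, hφinv _ (mul_mem hl hk), hφu _ _ (hcommu l hl k hk)]
      have h2 : φ (k * l⁻¹) = (φ (k⁻¹ * l))⁻¹ := by
        rw [← hφinv _ (mul_mem (inv_mem hk) hl), mul_inv_rev, inv_inv,
          hφu _ _ (hcommu k hk _ (inv_mem hl))]
      rw [h1, h2]
      have hc2 : ∀ x, (φ x)⁻¹ ∈ Subgroup.center C := fun x => inv_mem (hβc c (cj x c))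
      rw [mul_assoc (φ (k⁻¹ * l)), ← mul_assoc ((φ (k * l))⁻¹), inv_mul_cancel, one_mul,
        mul_inv_cancel]
    rintro g ⟨hg, hgS⟩ g' ⟨hg', hgS'⟩
    rcases hgS with hg1 | ⟨e, -, he⟩
    · exact hC₁cent g hg1 g' hg'
    rcases hgS' with hg1' | ⟨e', -, he'⟩
    · exact (hC₁cent g' hg1' g hg).symm
    obtain ⟨k, hk, hke⟩ := hrep e
    obtain ⟨l, hl, hle⟩ := hrep e'
    have h3 : β ⟨g, hg⟩ ⟨g', hg'⟩ = 1 := by
      rw [hβL0 _ _ _ (he.trans hke), hβR0 _ _ _ (he'.trans hle)]
      exact hmain k hk l hl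
    exact (congrArg Subtype.val (commutatorElement_eq_one_iff_mul_comm.1 h3)).symm
  set B := Subgroup.closure S with hB
  have hBC : B ≤ C := (Subgroup.closure_le C).2 fun g hg => hg.1
  haveI hBc : IsMulCommutative B := by
    refine Subgroup.le_centralizer_iff_isMulCommutative.1 ?_
    rw [hB, Subgroup.centralizer_closure, Subgroup.closure_le]
    exact fun g hg => Subgroup.mem_centralizer_iff.2 fun g' hg' => hScomm g hg g' hg'
  have hgenA : ∀ (a : A) (e : E), u a (gen e) = gen (θ a e) := by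
    intro a e
    have hconj : ∀ f : E, u a ((f : MulAut (C ⧸ N)) (π c)) =
        ((θ a f : E) : MulAut (C ⧸ N)) (π c) := fun f => by
      rw [← MulAut.mul_apply, hθapp]
      conv_rhs => rw [← hcA a, ← MulAut.mul_apply, inv_mul_cancel_right]
    show u a ((e : MulAut (C ⧸ N)) (π c) * ((e⁻¹ : E) : MulAut (C ⧸ N)) (π c)) = _
    rw [map_mul, hconj, hconj, map_inv (θ a)]
  have hBinv : ∀ a ∈ A, ∀ b ∈ B, a * b * a⁻¹ ∈ B := by
    intro a ha b hb
    have hle : B ≤ B.comap (MulAut.conj a).toMonoidHom := by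
      refine (Subgroup.closure_le _).2 fun g hg => ?_
      obtain ⟨hgC, hgS⟩ := hg
      refine Subgroup.subset_closure ⟨hCn.conj_mem g hgC a, ?_⟩
      rcases hgS with hg1 | ⟨e, he, hge⟩
      · exact Or.inl (hC₁n.conj_mem g hg1 a)
      · refine Or.inr ⟨θ ⟨a, ha⟩ e, hE₁inv _ e he, ?_⟩
        rw [← hgenA, ← hge, hu]
        exact congrArg π (Subtype.ext (hcj a ⟨g, hgC⟩).symm)
    exact hle hb
  set σ := conjEnd A B hBinv with hσ
  let πV : Additive B →+ Additive (C ⧸ N) :=
    MonoidHom.toAdditive (π.comp (Subgroup.inclusion hBC))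
  have hπσ : ∀ (a : A) (x : Additive B), πV (σ a x) = ρ a (πV x) := by
    intro a x
    show Additive.ofMul (π (Subgroup.inclusion hBC _)) =
      Additive.ofMul (u a (π (Subgroup.inclusion hBC (Additive.toMul x))))
    rw [hu]
    exact congrArg (fun z => Additive.ofMul (π z)) (Subtype.ext (by rw [hcj]; rfl))
  have hπpow : ∀ (a : A) (n : ℕ) (x : Additive B),
      πV ((disp σ a ^ n) x) = ((ρ a - 1) ^ n : AddMonoid.End (Additive (C ⧸ N))) (πV x) := by
    intro a n
    induction n with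
    | zero => intro x; rfl
    | succ n ih =>
      intro x
      rw [pow_succ, pow_succ]
      show πV ((disp σ a ^ n) (disp σ a x)) = ((ρ a - 1) ^ n : AddMonoid.End _) _
      rw [ih]
      refine congrArg _ ?_
      rw [disp_apply, map_sub, hπσ]
      rfl
  let C₁V : AddSubgroup (Additive B) := (C₁.subgroupOf B).toAddSubgroup
  have hC₁V : ∀ x : Additive B, x ∈ C₁V ↔ πV x = 0 := fun x =>
    (hπ1 (Subgroup.inclusion hBC (Additive.toMul x))).symm.trans
      ⟨fun h0 => congrArg Additive.ofMul h0, fun h0 => congrArg Additive.toMul h0⟩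
  have hC₁inv : ∀ a, ∀ x ∈ C₁V, σ a x ∈ C₁V := fun a x hx => by
    rw [hC₁V] at hx ⊢
    rw [hπσ, hx, map_zero]
  refine no_offender hp5 (hyp_conjEnd hA (hBC.trans hCP) hBinv fun b hb => hexp b (hBC hb))
    hC₁inv R₁ (fun r hr x => ?_) hj hidx hgen fun a ha => ?_
  · rw [hC₁V, disp_apply, map_sub, hπσ, sub_eq_zero]
    have key : ∀ b, ∀ hb : b ∈ B, u r (π ⟨b, hBC hb⟩) = π ⟨b, hBC hb⟩ := by
      intro b hb
      induction hb using Subgroup.closure_induction with
      | mem g hg =>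
        obtain ⟨hgC, hgS⟩ := hg
        rcases hgS with hg1 | ⟨e, he, hge⟩
        · rw [(hπ1 _).2 hg1, map_one]
        · rw [hge, hgenA, hR₁E r hr e he]
      | one => exact map_one _
      | mul x y hx hy ihx ihy =>
        show u r (π (⟨x, hBC hx⟩ * ⟨y, hBC hy⟩)) = π (⟨x, hBC hx⟩ * ⟨y, hBC hy⟩)
        rw [map_mul π, map_mul, ihx, ihy]
      | inv x hx ihx =>
        show u r (π (⟨x, hBC hx⟩⁻¹)) = π (⟨x, hBC hx⟩⁻¹)
        rw [map_inv π, map_inv, ihx]
    exact congrArg Additive.ofMul (key _ (Additive.toMul x).2)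
  · obtain ⟨e, he, hne⟩ := hfull a ha
    obtain ⟨g, hg⟩ := QuotientGroup.mk'_surjective N (gen e)
    have hgB : (g : X) ∈ B := Subgroup.subset_closure ⟨g.2, Or.inr ⟨e, he, hg⟩⟩
    refine ⟨Additive.ofMul ⟨(g : X), hgB⟩, fun hx => hne ?_⟩
    rw [hC₁V, hπpow] at hx
    have hgv : πV (Additive.ofMul ⟨(g : X), hgB⟩) = ε e v + ε e⁻¹ v := by
      show Additive.ofMul (π g) = _
      rw [hg]
      show _ = Additive.ofMul ((e : MulAut (C ⧸ N)) (Additive.toMul v) *
        ((e⁻¹ : E) : MulAut (C ⧸ N)) (Additive.toMul v))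
      rw [← hc]
    rwa [hgv] at hx

end Cfsg.Agent.ThompsonFive
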