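import Cfsg.Agent.ThompsonFive.Operator
import Cfsg.Agent.Modules.Fixed

/-!
# A maximal abelian group cannot act with a long Jordan block modulo a small submodule

`A` acts on the elementary abelian group `B` and no invariant subgroup `U` of `B` together with a
subgroup of `A` centralising it is larger than `A` (in the sense of `Hyp.offender`). If `R₁` acts
trivially on `B/C₁` with `A/R₁` cyclic of order `q`, generated by `a`, then
`(a-1)^(q-1) B ≤ C₁` when `p ≥ 5`.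
-/

set_option autoImplicit false

namespace Cfsg.Agent.ThompsonFive

variable {p : ℕ} [hp : Fact p.Prime]
variable {A V : Type*} [CommGroup A] [Finite A] [AddCommGroup V] [Finite V]

/-- The elements of `A` fixing `M` pointwise. -/
def fixer (σ : A →* AddMonoid.End V) (M : AddSubgroup V) : Subgroup A where
  carrier := {r | ∀ x ∈ M, σ r x = x}
  one_mem' := fun x _ => by rw [map_one]; rfl
  mul_mem' := fun {r s} hr hs x hx => by
    rw [map_mul]; show σ r (σ s x) = x; rw [hs x hx, hr x hx]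
  inv_mem' := fun {r} hr x hx => by
    conv_lhs => rw [← hr x hx]
    show (σ r⁻¹ * σ r) x = x
    rw [← map_mul, inv_mul_cancel, map_one]; rfl

/-- The elements of `V` fixed by all of `R`. -/
def fixedBy (σ : A →* AddMonoid.End V) (R : Subgroup A) : AddSubgroup V where
  carrier := {x | ∀ r ∈ R, σ r x = x}
  zero_mem' := fun r _ => map_zero _
  add_mem' := fun {x y} hx hy r hr => by rw [map_add, hx r hr, hy r hr]
  neg_mem' := fun {x} hx r hr => by rw [map_neg, hx r hr]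

theorem comm_apply (σ : A →* AddMonoid.End V) (r s : A) (x : V) :
    σ r (σ s x) = σ s (σ r x) := by
  show (σ r * σ s) x = (σ s * σ r) x
  rw [← map_mul, ← map_mul, mul_comm]

theorem mul_apply' (σ : A →* AddMonoid.End V) (r s : A) (x : V) :
    σ (r * s) x = σ r (σ s x) := by rw [map_mul]; rfl

/-- The restriction of an action to an invariant subgroup. -/
def restrictEnd (σ : A →* AddMonoid.End V) (S : AddSubgroup V)
    (hS : ∀ b, ∀ x ∈ S, σ b x ∈ S) : A →* AddMonoid.End S where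
  toFun b :=
    { toFun := fun (x : S) => (⟨σ b (x : V), hS b x x.2⟩ : S)
      map_zero' := Subtype.ext (by exact map_zero (σ b))
      map_add' := fun x y => Subtype.ext (by exact map_add (σ b) (x : V) (y : V)) }
  map_one' := AddMonoidHom.ext fun x => Subtype.ext (by
    show σ 1 (x : V) = x
    rw [map_one]; rfl)
  map_mul' := fun b c => AddMonoidHom.ext fun x => Subtype.ext (mul_apply' σ b c x)

/-- The displacement by `b`, as an endomorphism. -/
abbrev disp (σ : A →* AddMonoid.End V) (b : A) : AddMonoid.End V := σ b - 1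

theorem disp_apply (σ : A →* AddMonoid.End V) (b : A) (x : V) : disp σ b x = σ b x - x := rfl

theorem disp_comm (σ : A →* AddMonoid.End V) (b c : A) (x : V) :
    disp σ b (disp σ c x) = disp σ c (disp σ b x) := by
  simp only [disp_apply, map_sub]
  rw [comm_apply σ b c x]
  abel

theorem sigma_disp (σ : A →* AddMonoid.End V) (b c : A) (x : V) :
    σ b (disp σ c x) = disp σ c (σ b x) := by
  simp only [disp_apply, map_sub]
  rw [comm_apply σ b c x]

/-- The hypotheses: `V` is elementary abelian and `A` is a largest abelian group. -/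
structure Hyp (p : ℕ) (σ : A →* AddMonoid.End V) : Prop where
  expV : ∀ x : V, p • x = 0
  offender : ∀ (U : AddSubgroup V) (R : Subgroup A), (∀ b, ∀ x ∈ U, σ b x ∈ U) →
    R ≤ fixer σ U → Nat.card R * Nat.card U ≤ Nat.card A * Nat.card ↥(U ⊓ fixedBy σ ⊤)

variable {σ : A →* AddMonoid.End V}

/-- The invariant subgroups `M` of `C₁` for which `C_A(M) M` is again as large as `A`. -/
def IsGood (σ : A →* AddMonoid.End V) (C₁ M : AddSubgroup V) : Prop :=
  C₁ ⊓ fixedBy σ ⊤ ≤ M ∧ M ≤ C₁ ∧ (∀ b, ∀ x ∈ M, σ b x ∈ M) ∧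
    Nat.card A * Nat.card ↥(C₁ ⊓ fixedBy σ ⊤) ≤ Nat.card (fixer σ M) * Nat.card M

theorem isGood_sup (h : Hyp p σ) {C₁ M N : AddSubgroup V} (hM : IsGood σ C₁ M)
    (hN : IsGood σ C₁ N) : IsGood σ C₁ (M ⊔ N) := by
  obtain ⟨hM1, hM2, hM3, hM4⟩ := hM
  obtain ⟨hN1, hN2, hN3, hN4⟩ := hN
  refine ⟨hM1.trans le_sup_left, sup_le hM2 hN2, fun b x hx => ?_, ?_⟩
  · obtain ⟨y, hy, z, hz, rfl⟩ := AddSubgroup.mem_sup.1 hx
    rw [map_add]
    exact AddSubgroup.add_mem_sup (hM3 b y hy) (hN3 b z hz)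
  set I := C₁ ⊓ fixedBy σ ⊤ with hI
  have hfix : fixer σ (M ⊔ N) = fixer σ M ⊓ fixer σ N := by
    ext r
    refine ⟨fun hr => ⟨fun x hx => hr x (AddSubgroup.mem_sup_left hx),
      fun x hx => hr x (AddSubgroup.mem_sup_right hx)⟩, fun hr x hx => ?_⟩
    obtain ⟨y, hy, z, hz, rfl⟩ := AddSubgroup.mem_sup.1 hx
    rw [map_add, hr.1 y hy, hr.2 z hz]
  have hle : fixer σ M ⊔ fixer σ N ≤ fixer σ (M ⊓ N) :=
    sup_le (fun r hr x hx => hr x hx.1) (fun r hr x hx => hr x hx.2)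
  have hint : Nat.card ↥(fixer σ (M ⊓ N)) * Nat.card ↥(M ⊓ N) ≤ Nat.card A * Nat.card I := by
    refine (h.offender _ _ (fun b x hx => AddSubgroup.mem_inf.2 ⟨hM3 b x hx.1, hN3 b x hx.2⟩) le_rfl).trans
      (Nat.mul_le_mul_left _ (AddSubgroup.card_le_of_le ?_))
    exact fun x hx => ⟨hM2 hx.1.1, hx.2⟩
  have h1 : Nat.card ↥(fixer σ M ⊔ fixer σ N) * Nat.card ↥(fixer σ M ⊓ fixer σ N) =
      Nat.card (fixer σ M) * Nat.card (fixer σ N) :=
    Modules.card_sup_mul_card_inf (fun r _ => Subgroup.mem_normalizer_iff.2 fun s => by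
      rw [mul_comm r, mul_inv_cancel_right])
  have h2 := card_sup_mul_card_inf M N
  have h3 : Nat.card ↥(fixer σ M ⊔ fixer σ N) ≤ Nat.card (fixer σ (M ⊓ N)) :=
    Subgroup.card_le_of_le hle
  rw [hfix]
  refine Nat.le_of_mul_le_mul_right (c := Nat.card A * Nat.card I) ?_
    (Nat.mul_pos Nat.card_pos Nat.card_pos)
  calc Nat.card A * Nat.card I * (Nat.card A * Nat.card I)
      ≤ (Nat.card (fixer σ M) * Nat.card M) * (Nat.card (fixer σ N) * Nat.card N) :=
        Nat.mul_le_mul hM4 hN4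
    _ = (Nat.card ↥(fixer σ M ⊔ fixer σ N) * Nat.card ↥(fixer σ M ⊓ fixer σ N)) *
        (Nat.card ↥(M ⊔ N) * Nat.card ↥(M ⊓ N)) := by rw [h1, h2]; ring
    _ ≤ (Nat.card (fixer σ (M ⊓ N)) * Nat.card ↥(fixer σ M ⊓ fixer σ N)) *
        (Nat.card ↥(M ⊔ N) * Nat.card ↥(M ⊓ N)) := by gcongr
    _ = (Nat.card ↥(fixer σ M ⊓ fixer σ N) * Nat.card ↥(M ⊔ N)) *
        (Nat.card (fixer σ (M ⊓ N)) * Nat.card ↥(M ⊓ N)) := by ring
    _ ≤ (Nat.card ↥(fixer σ M ⊓ fixer σ N) * Nat.card ↥(M ⊔ N)) * (Nat.card A * Nat.card I) :=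
        Nat.mul_le_mul_left _ hint

theorem isGood_base (C₁ : AddSubgroup V) (hC₁ : ∀ b, ∀ x ∈ C₁, σ b x ∈ C₁) :
    IsGood σ C₁ (C₁ ⊓ fixedBy σ ⊤) := by
  refine ⟨le_rfl, inf_le_left, fun b x hx => AddSubgroup.mem_inf.2 ⟨hC₁ b x hx.1, fun r hr => ?_⟩, ?_⟩
  · rw [comm_apply σ r b x, hx.2 r hr]
  · have : fixer σ (C₁ ⊓ fixedBy σ ⊤) = ⊤ :=
      top_le_iff.1 fun r _ x hx => hx.2 r (Subgroup.mem_top r)
    rw [this, Subgroup.card_top]

/-- For each `x` in `C₁` there is a good subgroup containing all displacements of `x`. -/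
theorem exists_good_of_mem {C₁ : AddSubgroup V} (hC₁ : ∀ b, ∀ x ∈ C₁, σ b x ∈ C₁)
    {x : V} (hx : x ∈ C₁) : ∃ M, IsGood σ C₁ M ∧ ∀ c, disp σ c x ∈ M := by
  set I := C₁ ⊓ fixedBy σ ⊤ with hI
  set M := I ⊔ AddSubgroup.closure (Set.range fun c => disp σ c x) with hMdef
  have hmem : ∀ c, disp σ c x ∈ M := fun c =>
    AddSubgroup.mem_sup_right (AddSubgroup.subset_closure ⟨c, rfl⟩)
  have hMC : M ≤ C₁ := sup_le inf_le_left ((AddSubgroup.closure_le _).2 (by
    rintro _ ⟨c, rfl⟩; exact sub_mem (hC₁ c x hx) hx))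
  have hMinv : ∀ b, ∀ y ∈ M, σ b y ∈ M := by
    intro b y hy
    obtain ⟨u, hu, w, hw, rfl⟩ := AddSubgroup.mem_sup.1 hy
    rw [map_add, hu.2 b (Subgroup.mem_top b)]
    refine add_mem (AddSubgroup.mem_sup_left hu) ?_
    clear hy
    induction hw using AddSubgroup.closure_induction with
    | mem z hz =>
      obtain ⟨c, rfl⟩ := hz
      have : σ b (disp σ c x) = disp σ (b * c) x - disp σ b x := by
        simp only [disp_apply, map_sub, mul_apply']
        abel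
      rw [this]
      exact sub_mem (hmem _) (hmem _)
    | zero => rw [map_zero]; exact zero_mem _
    | add u v _ _ hu hv => rw [map_add]; exact add_mem hu hv
    | neg u _ hu => rw [map_neg]; exact neg_mem hu
  refine ⟨M, ⟨le_sup_left, hMC, hMinv, ?_⟩, hmem⟩
  -- `A / fixer M` injects into `M / I`
  have hinj : (fixer σ M).index ≤ Nat.card (M ⧸ I.addSubgroupOf M) := by
    rw [Subgroup.index_eq_card]
    refine Nat.card_le_card_of_injective (fun q => QuotientAddGroup.mk ⟨disp σ q.out x, hmem _⟩) ?_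
    intro q q' hqq'
    rw [← Quotient.out_eq' q, ← Quotient.out_eq' q']
    set b := q.out
    set b' := q'.out
    have hd : -(disp σ b x) + disp σ b' x ∈ I :=
      AddSubgroup.mem_addSubgroupOf.1 (QuotientAddGroup.eq.1 hqq')
    apply QuotientGroup.eq.2
    set g := b⁻¹ * b' with hg
    have hg1 : disp σ g x ∈ fixedBy σ ⊤ := by
      have : disp σ g x = σ b⁻¹ (-(disp σ b x) + disp σ b' x) := by
        simp only [disp_apply, hg, mul_apply', map_add, map_neg, map_sub]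
        rw [show σ b⁻¹ (σ b x) = x by rw [← mul_apply', inv_mul_cancel, map_one]; rfl]
        abel
      rw [this, hd.2 b⁻¹ (Subgroup.mem_top _)]
      exact hd.2
    intro y hy
    obtain ⟨u, hu, w, hw, rfl⟩ := AddSubgroup.mem_sup.1 hy
    rw [map_add, hu.2 g (Subgroup.mem_top g)]
    congr 1
    clear hy
    induction hw using AddSubgroup.closure_induction with
    | mem z hz =>
      obtain ⟨c, rfl⟩ := hz
      rw [← sub_eq_zero]
      show disp σ g (disp σ c x) = 0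
      rw [disp_comm, disp_apply, hg1 c (Subgroup.mem_top c), sub_self]
    | zero => rw [map_zero]
    | add u v _ _ hu hv => rw [map_add, hu, hv]
    | neg u _ hu => rw [map_neg, hu]
  have h1 := (fixer σ M).card_mul_index
  have h2 : Nat.card M = Nat.card (M ⧸ I.addSubgroupOf M) * Nat.card I := by
    rw [AddSubgroup.card_eq_card_quotient_mul_card_addSubgroup (I.addSubgroupOf M),
      Nat.card_congr (AddSubgroup.addSubgroupOfEquivOfLe le_sup_left).toEquiv]
  rw [h2, ← h1]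
  calc Nat.card (fixer σ M) * (fixer σ M).index * Nat.card I
      ≤ Nat.card (fixer σ M) * Nat.card (M ⧸ I.addSubgroupOf M) * Nat.card I := by gcongr
    _ = _ := by ring

/-- There is a good subgroup containing all displacements of `C₁`. -/
theorem exists_good (h : Hyp p σ) {C₁ : AddSubgroup V} (hC₁ : ∀ b, ∀ x ∈ C₁, σ b x ∈ C₁) :
    ∃ M, IsGood σ C₁ M ∧ ∀ c, ∀ x ∈ C₁, disp σ c x ∈ M := by
  obtain ⟨M, hM, hmax⟩ := Set.exists_max_image {M : AddSubgroup V | IsGood σ C₁ M}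
    (fun M => Nat.card M) (Set.toFinite _) ⟨_, isGood_base C₁ hC₁⟩
  refine ⟨M, hM, fun c x hx => ?_⟩
  obtain ⟨N, hN, hNx⟩ := exists_good_of_mem hC₁ hx
  have hle := hmax _ (isGood_sup h hM hN)
  have heq : M = M ⊔ N := AddSubgroup.eq_of_le_of_card_ge le_sup_left hle
  rw [heq]
  exact AddSubgroup.mem_sup_right (hNx c)

theorem card_map_mul {W : Type*} [AddCommGroup W] (f : V →+ W) (T : AddSubgroup V) :
    Nat.card (T.map f) * Nat.card ↥(T ⊓ f.ker) = Nat.card T := by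
  rw [← AddSubgroup.relIndex_ker, ← AddSubgroup.relIndex_bot_left, ← AddSubgroup.inf_relIndex_left,
    mul_comm, AddSubgroup.relIndex_mul_relIndex _ _ _ bot_le inf_le_left,
    AddSubgroup.relIndex_bot_left]

theorem mem_fixedBy_top_of_gen {R : Subgroup A} {a : A} (ha : Subgroup.zpowers a ⊔ R = ⊤) {x : V}
    (hR : x ∈ fixedBy σ R) (hax : σ a x = x) : x ∈ fixedBy σ ⊤ := by
  set S : Subgroup A := fixer σ (AddSubgroup.closure {x}) with hS
  have hkey : ∀ r, σ r x = x → r ∈ S := by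
    intro r hr y hy
    obtain ⟨n, rfl⟩ := AddSubgroup.mem_closure_singleton.1 hy
    rw [map_zsmul, hr]
  have : (⊤ : Subgroup A) ≤ S := by
    rw [← ha]
    exact sup_le (Subgroup.zpowers_le.2 (hkey a hax)) (fun r hr => hkey r (hR r hr))
  exact fun r hr => this hr x (AddSubgroup.subset_closure rfl)

/-- `T`, fixed by `R` with `A = ⟨a⟩R`, is mapped by `a - 1` to a group of order at most `|A : R|`,
if `R` fixes `T`. -/
theorem card_disp_le (h : Hyp p σ) {T : AddSubgroup V} (hT : ∀ b, ∀ x ∈ T, σ b x ∈ T)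
    {R : Subgroup A} (hRT : R ≤ fixer σ T) {a : A} (ha : Subgroup.zpowers a ⊔ R = ⊤) :
    Nat.card (T.map (disp σ a : V →+ V)) ≤ R.index := by
  have hker : T ⊓ fixedBy σ ⊤ = T ⊓ (disp σ a : V →+ V).ker := by
    ext x
    refine ⟨fun hx => ⟨hx.1, ?_⟩, fun hx => ⟨hx.1, ?_⟩⟩
    · show σ a x - x = 0
      rw [hx.2 a (Subgroup.mem_top a), sub_self]
    · refine mem_fixedBy_top_of_gen ha (fun r hr => hRT hr x hx.1) ?_
      have h0 : (disp σ a : V →+ V) x = 0 := hx.2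
      exact sub_eq_zero.1 h0
  have h1 := h.offender T R hT hRT
  rw [hker, ← card_map_mul (disp σ a : V →+ V) T, ← R.card_mul_index] at h1
  have hpos : 0 < Nat.card R * Nat.card ↥(T ⊓ (disp σ a : V →+ V).ker) :=
    Nat.mul_pos Nat.card_pos Nat.card_pos
  nlinarith

theorem add_four_le_pow (hp5 : 5 ≤ p) {j : ℕ} (hj : 1 ≤ j) : j + 4 ≤ p ^ j := by
  refine le_trans ?_ (Nat.pow_le_pow_left hp5 j)
  induction j with
  | zero => omega
  | succ j ih =>
    rcases Nat.eq_zero_or_pos j with rfl | hj'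
    · norm_num
    · have := ih hj'
      rw [pow_succ]
      omega

variable (C₁ : AddSubgroup V)

/-- The endomorphism induced by `b` on `V ⧸ C₁`. -/
noncomputable def quotDisp (σ : A →* AddMonoid.End V) (C₁ : AddSubgroup V)
    (hC₁ : ∀ b, ∀ x ∈ C₁, σ b x ∈ C₁) (b : A) : AddMonoid.End (V ⧸ C₁) :=
  QuotientAddGroup.map C₁ C₁ (disp σ b : V →+ V) fun x hx => sub_mem (hC₁ b x hx) hx

theorem quotDisp_pow_mk (hC₁ : ∀ b, ∀ x ∈ C₁, σ b x ∈ C₁) (b : A) (n : ℕ) (x : V) :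
    (quotDisp σ C₁ hC₁ b ^ n) (x : V ⧸ C₁) = (((disp σ b ^ n) x : V) : V ⧸ C₁) := by
  induction n generalizing x with
  | zero => rfl
  | succ n ih =>
    rw [pow_succ, pow_succ]
    show (quotDisp σ C₁ hC₁ b ^ n) (quotDisp σ C₁ hC₁ b (x : V ⧸ C₁)) = _
    exact ih (disp σ b x)

/-- The main numerical contradiction. -/
theorem no_offender (hp5 : 5 ≤ p) (h : Hyp p σ) {C₁ : AddSubgroup V}
    (hC₁ : ∀ b, ∀ x ∈ C₁, σ b x ∈ C₁) (R₁ : Subgroup A)
    (htriv : ∀ r ∈ R₁, ∀ x, disp σ r x ∈ C₁) {j : ℕ} (hj : 1 ≤ j) (hidx : R₁.index = p ^ j)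
    (hgen : ∃ a, Subgroup.zpowers a ⊔ R₁ = ⊤)
    (hfull : ∀ a, Subgroup.zpowers a ⊔ R₁ = ⊤ → ∃ x, (disp σ a ^ (p ^ j - 1)) x ∉ C₁) :
    False := by
  obtain ⟨M, hMgood, hMdisp⟩ := exists_good h hC₁
  obtain ⟨hM1, hM2, hM3, hM4⟩ := hMgood
  set R₂ := fixer σ M with hR₂
  rcases subsingleton_or_nontrivial V with hs | hs
  · obtain ⟨a, ha⟩ := hgen
    obtain ⟨x, hx⟩ := hfull a ha
    exact hx (by rw [Subsingleton.elim ((disp σ a ^ (p ^ j - 1)) x) 0]; exact zero_mem _)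
  haveI := charP_end (p := p) h.expV
  -- facts for any generator
  have hquad : ∀ a, Subgroup.zpowers a ⊔ R₁ = ⊤ → ∀ s ∈ C₁ ⊓ fixedBy σ R₁,
      disp σ a (disp σ a s) = 0 := by
    intro a ha s hs
    set S := C₁ ⊓ fixedBy σ R₁ with hS
    have hSinv : ∀ b, ∀ x ∈ S, σ b x ∈ S := fun b x hx =>
      ⟨hC₁ b x hx.1, fun r hr => by rw [comm_apply σ r b x, hx.2 r hr]⟩
    set τ := restrictEnd σ S hSinv with hτ
    have hbound : ∀ i, τ a ^ (p ^ i) = 1 →
        Nat.card ((⊤ : AddSubgroup S).map (τ a - 1 : AddMonoid.End S)) ≤ p ^ i := by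
      intro i hi
      set R := R₁ ⊔ Subgroup.zpowers (a ^ (p ^ i)) with hR
      have hRfix : R ≤ fixer σ S := by
        refine sup_le (fun r hr x hx => hx.2 r hr) (Subgroup.zpowers_le.2 fun x hx => ?_)
        have := congrArg Subtype.val (DFunLike.congr_fun ((map_pow τ a _).trans hi) ⟨x, hx⟩)
        exact this
      have hgenR : Subgroup.zpowers a ⊔ R = ⊤ :=
        top_le_iff.1 (ha ▸ sup_le_sup_left le_sup_left _)
      have hindex : R.index ≤ p ^ i := by
        rw [Subgroup.index_eq_card]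
        have hgenq : ∀ y : A ⧸ R, y ∈ Subgroup.zpowers (a : A ⧸ R) := by
          intro y
          obtain ⟨z, rfl⟩ := QuotientGroup.mk'_surjective R y
          have hz : z ∈ Subgroup.zpowers a ⊔ R := by rw [hgenR]; trivial
          obtain ⟨u, hu, r, hr, rfl⟩ := Subgroup.mem_sup.1 hz
          obtain ⟨n, rfl⟩ := hu
          refine ⟨n, ?_⟩
          show (a : A ⧸ R) ^ n = ((a ^ n * r : A) : A ⧸ R)
          rw [QuotientGroup.mk_mul_of_mem _ hr, QuotientGroup.mk_zpow]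
        rw [← orderOf_eq_card_of_forall_mem_zpowers hgenq]
        refine Nat.le_of_dvd (pow_pos hp.out.pos i) (orderOf_dvd_of_pow_eq_one ?_)
        rw [← QuotientGroup.mk_pow, QuotientGroup.eq_one_iff]
        exact Subgroup.mem_sup_right (Subgroup.mem_zpowers _)
      refine le_trans (le_of_eq ?_) ((card_disp_le h hSinv hRfix hgenR).trans hindex)
      rw [Nat.card_congr (AddSubgroup.equivMapOfInjective ((⊤ : AddSubgroup S).map (τ a - 1 : AddMonoid.End S))
        S.subtype S.subtype_injective).toEquiv]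
      refine Nat.card_congr (Equiv.setCongr ?_)
      ext y
      constructor
      · rintro ⟨z, ⟨w, -, rfl⟩, rfl⟩
        exact ⟨w, w.2, rfl⟩
      · rintro ⟨w, hw, rfl⟩
        exact ⟨_, ⟨⟨w, hw⟩, trivial, rfl⟩, rfl⟩
    have hexp : ∃ i, τ a ^ (p ^ i) = 1 := by
      refine ⟨j, ?_⟩
      have hmem : a ^ (p ^ j) ∈ R₁ := hidx ▸ R₁.pow_index_mem a
      rw [← map_pow]
      exact AddMonoidHom.ext fun x => Subtype.ext (x.2.2 _ hmem)
    have := sub_one_sq_eq_zero (p := p) (by omega) (V := S)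
      (fun v => Subtype.ext (h.expV v)) (τ a) hexp hbound ⟨s, hs⟩
    exact congrArg Subtype.val this
  have hDnil : ∀ a, ((disp σ a) ^ (p ^ j) : AddMonoid.End V) = σ (a ^ (p ^ j)) - 1 := fun a => by
    rw [map_pow, ← sub_one_pow_char_pow]
  have hqnil : ∀ a, ∀ y ∈ (⊤ : AddSubgroup (V ⧸ C₁)), (quotDisp σ C₁ hC₁ a ^ (p ^ j)) y = 0 := by
    intro a y _
    obtain ⟨x, rfl⟩ := QuotientAddGroup.mk'_surjective C₁ y
    show (quotDisp σ C₁ hC₁ a ^ (p ^ j)) (x : V ⧸ C₁) = 0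
    rw [quotDisp_pow_mk, hDnil, QuotientAddGroup.eq_zero_iff]
    exact htriv _ (hidx ▸ R₁.pow_index_mem a) x
  have hexpQ : ∀ y : V ⧸ C₁, p • y = 0 := by
    intro y
    obtain ⟨x, rfl⟩ := QuotientAddGroup.mk'_surjective C₁ y
    rw [← map_nsmul, h.expV, map_zero]
  have hlower : ∀ a, Subgroup.zpowers a ⊔ R₁ = ⊤ → ∀ m,
      p ^ (p ^ j - 1 + 1 - m) ≤
        Nat.card ((⊤ : AddSubgroup (V ⧸ C₁)).map (quotDisp σ C₁ hC₁ a ^ m : AddMonoid.End _)) := by
    intro a ha m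
    obtain ⟨x, hx⟩ := hfull a ha
    refine pow_le_card_map hexpQ _ ⊤ (fun _ _ => trivial) _ (hqnil a) ⟨x, trivial, ?_⟩ m
    rw [quotDisp_pow_mk]
    exact fun he => hx ((QuotientAddGroup.eq_zero_iff _).1 he)
  have hj4 := add_four_le_pow hp5 hj
  by_cases hcase : R₂ ⊔ R₁ = ⊤
  · -- some generator centralises `M`
    obtain ⟨a₀, ha₀⟩ := hgen
    have hmem : a₀ ∈ R₂ ⊔ R₁ := by rw [hcase]; trivial
    obtain ⟨a, haR₂, r, hr, hprod⟩ := Subgroup.mem_sup.1 hmem
    have ha : Subgroup.zpowers a ⊔ R₁ = ⊤ := by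
      refine top_le_iff.1 (ha₀ ▸ sup_le (Subgroup.zpowers_le.2 ?_) le_sup_right)
      rw [← hprod]
      exact Subgroup.mul_mem_sup (Subgroup.mem_zpowers a) hr
    set T := fixedBy σ R₁ with hT
    have hTinv : ∀ b, ∀ x ∈ T, σ b x ∈ T := fun b x hx r' hr' => by
      rw [comm_apply σ r' b x, hx r' hr']
    have h2 : ∀ x, disp σ a (disp σ a x) ∈ T := by
      intro x r' hr'
      rw [← sub_eq_zero]
      show disp σ r' (disp σ a (disp σ a x)) = 0
      rw [disp_comm σ r' a, disp_comm σ r' a]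
      show σ a _ - _ = 0
      rw [sub_eq_zero]
      exact haR₂ _ (hMdisp a _ (htriv r' hr' x))
    have hup := (card_disp_le h hTinv (fun r' hr' x hx => hx r' hr') ha).trans_eq hidx
    have hbig : Nat.card ((⊤ : AddSubgroup (V ⧸ C₁)).map
        (quotDisp σ C₁ hC₁ a ^ 3 : AddMonoid.End _)) ≤
        Nat.card (T.map (disp σ a : V →+ V)) := by
      refine le_trans (AddSubgroup.card_le_of_le ?_)
        (Nat.le_of_dvd Nat.card_pos (AddSubgroup.card_map_dvd _ (QuotientAddGroup.mk' C₁)))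
      rintro y ⟨y', -, rfl⟩
      obtain ⟨x, rfl⟩ := QuotientAddGroup.mk'_surjective C₁ y'
      exact ⟨_, ⟨_, h2 x, rfl⟩, (quotDisp_pow_mk C₁ hC₁ a 3 x).symm⟩
    have := Nat.pow_le_pow_iff_right hp.out.one_lt |>.1 ((hlower a ha 3).trans (hbig.trans hup))
    omega
  · obtain ⟨a, ha⟩ := hgen
    set R₃ := R₂ ⊓ R₁ with hR₃
    set T := fixedBy σ R₃ with hT
    have hTinv : ∀ b, ∀ x ∈ T, σ b x ∈ T := fun b x hx r' hr' => by
      rw [comm_apply σ r' b x, hx r' hr']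
    have hMT : M ≤ T := fun x hx r hr => hr.1 x hx
    have h3 : ∀ x, disp σ a (disp σ a (disp σ a x)) ∈ T := by
      intro x r hr
      rw [← sub_eq_zero]
      show disp σ r (disp σ a (disp σ a (disp σ a x))) = 0
      rw [disp_comm σ r a, disp_comm σ r a, disp_comm σ r a]
      refine hquad a ha _ (AddSubgroup.mem_inf.2 ⟨sub_mem (hC₁ a _ (htriv r hr.2 x)) (htriv r hr.2 x),
        fun r' hr' => ?_⟩)
      rw [← sub_eq_zero]
      show disp σ r' (disp σ a (disp σ r x)) = 0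
      rw [disp_comm σ a r, disp_comm σ r' r, disp_comm σ r' a]
      show σ r _ - _ = 0
      rw [sub_eq_zero]
      exact hr.1 _ (hMdisp a _ (htriv r' hr' x))
    set φ := QuotientAddGroup.mk' C₁ with hφ
    set I := C₁ ⊓ fixedBy σ ⊤ with hI
    have hker : φ.ker = C₁ := QuotientAddGroup.ker_mk' C₁
    have hTcard := card_map_mul φ T
    have hFcard := card_map_mul φ (T ⊓ fixedBy σ ⊤)
    rw [hker] at hTcard hFcard
    have hM' : Nat.card M ≤ Nat.card ↥(T ⊓ C₁) := AddSubgroup.card_le_of_le (le_inf hMT hM2)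
    have hI' : Nat.card ↥(T ⊓ fixedBy σ ⊤ ⊓ C₁) ≤ Nat.card I :=
      AddSubgroup.card_le_of_le (fun x hx => ⟨hx.2, hx.1.2⟩)
    have hoff := h.offender T R₃ hTinv (fun r' hr' x hx => hx r' hr')
    -- the image of `T` modulo `C₁`
    set Dq := quotDisp σ C₁ hC₁ a with hDq
    have himg := card_map_mul (Dq : V ⧸ C₁ →+ V ⧸ C₁) (T.map φ)
    have hkerle : Nat.card ((T ⊓ fixedBy σ ⊤).map φ) ≤
        Nat.card ↥(T.map φ ⊓ (Dq : V ⧸ C₁ →+ V ⧸ C₁).ker) := by
      refine AddSubgroup.card_le_of_le ?_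
      rintro y ⟨x, hx, rfl⟩
      refine ⟨⟨x, hx.1, rfl⟩, ?_⟩
      show (((disp σ a) x : V) : V ⧸ C₁) = 0
      rw [disp_apply, hx.2 a (Subgroup.mem_top a), sub_self]
      rfl
    have hbig : Nat.card ((⊤ : AddSubgroup (V ⧸ C₁)).map (Dq ^ 4 : AddMonoid.End _)) ≤
        Nat.card ((T.map φ).map (Dq : V ⧸ C₁ →+ V ⧸ C₁)) := by
      refine AddSubgroup.card_le_of_le ?_
      rintro y ⟨y', -, rfl⟩
      obtain ⟨x, rfl⟩ := QuotientAddGroup.mk'_surjective C₁ y'
      exact ⟨_, ⟨_, h3 x, rfl⟩, (quotDisp_pow_mk C₁ hC₁ a 4 x).symm⟩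
    -- `|R₂| p ≤ |R₃| q`
    have hR : Nat.card R₂ * p ≤ Nat.card R₃ * p ^ j := by
      have h1 : Nat.card ↥(R₂ ⊔ R₁) * Nat.card R₃ = Nat.card R₂ * Nat.card R₁ :=
        Modules.card_sup_mul_card_inf (fun r _ => Subgroup.mem_normalizer_iff.2 fun s => by
          rw [mul_comm r, mul_inv_cancel_right])
      have h2 := (R₂ ⊔ R₁).card_mul_index
      have h3' := R₁.card_mul_index
      rw [hidx] at h3'
      have h4 : p ≤ (R₂ ⊔ R₁).index := by
        have hdvd : (R₂ ⊔ R₁).index ∣ p ^ j :=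
          hidx ▸ Subgroup.index_dvd_of_le le_sup_right
        obtain ⟨i, -, hi⟩ := (Nat.dvd_prime_pow hp.out).1 hdvd
        rcases Nat.eq_zero_or_pos i with rfl | hi0
        · exact absurd (Subgroup.index_eq_one.1 (by simpa using hi)) hcase
        · rw [hi]; exact Nat.le_self_pow hi0.ne' p
      refine Nat.le_of_mul_le_mul_right (c := Nat.card R₁) ?_ Nat.card_pos
      calc Nat.card R₂ * p * Nat.card R₁ = Nat.card ↥(R₂ ⊔ R₁) * Nat.card R₃ * p := by rw [h1]; ring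
        _ ≤ Nat.card ↥(R₂ ⊔ R₁) * Nat.card R₃ * (R₂ ⊔ R₁).index := by gcongr
        _ = Nat.card R₃ * (Nat.card R₁ * p ^ j) := by rw [h3', ← h2]; ring
        _ = _ := by ring
    have hk : Nat.card R₃ * Nat.card ((T.map φ).map (Dq : V ⧸ C₁ →+ V ⧸ C₁)) ≤ Nat.card R₂ := by
      refine Nat.le_of_mul_le_mul_right (c := Nat.card M *
        Nat.card ↥(T.map φ ⊓ (Dq : V ⧸ C₁ →+ V ⧸ C₁).ker)) ?_
        (Nat.mul_pos Nat.card_pos Nat.card_pos)
      calc _ = Nat.card R₃ * (Nat.card (T.map φ) * Nat.card M) := by rw [← himg]; ring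
        _ ≤ Nat.card R₃ * Nat.card T := by rw [← hTcard]; gcongr
        _ ≤ Nat.card A * Nat.card ↥(T ⊓ fixedBy σ ⊤) := hoff
        _ ≤ Nat.card A * (Nat.card ↥(T.map φ ⊓ (Dq : V ⧸ C₁ →+ V ⧸ C₁).ker) * Nat.card I) := by
          rw [← hFcard]; gcongr
        _ = Nat.card A * Nat.card I * Nat.card ↥(T.map φ ⊓ (Dq : V ⧸ C₁ →+ V ⧸ C₁).ker) := by ring
        _ ≤ Nat.card R₂ * Nat.card M * Nat.card ↥(T.map φ ⊓ (Dq : V ⧸ C₁ →+ V ⧸ C₁).ker) := by
          gcongr
        _ = _ := by ring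
    have hfin : p * p ^ (p ^ j - 1 + 1 - 4) ≤ p ^ j := by
      refine Nat.le_of_mul_le_mul_left ?_ (Nat.card_pos : 0 < Nat.card R₃)
      calc Nat.card R₃ * (p * p ^ (p ^ j - 1 + 1 - 4))
          ≤ Nat.card R₃ * (p * Nat.card ((T.map φ).map (Dq : V ⧸ C₁ →+ V ⧸ C₁))) := by
            gcongr; exact (hlower a ha 4).trans hbig
        _ = (Nat.card R₃ * Nat.card ((T.map φ).map (Dq : V ⧸ C₁ →+ V ⧸ C₁))) * p := by ring
        _ ≤ Nat.card R₂ * p := by gcongr
        _ ≤ _ := hR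
    rw [← pow_succ'] at hfin
    have := Nat.pow_le_pow_iff_right hp.out.one_lt |>.1 hfin
    omega

end Cfsg.Agent.ThompsonFive
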