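import Mathlib

/-!
# Operators on finite elementary abelian groups

Norm identity in characteristic `p`, chains of images of a nilpotent operator, and the fact that a
`p`-power order automorphism with small commutator is quadratic.
-/

set_option autoImplicit false

open Finset

namespace Cfsg.Agent.ThompsonFive

variable {p : ℕ} [hp : Fact p.Prime]

/-- `(x - 1)^(q-1) = 1 + x + ... + x^(q-1)` for `q` a power of `p`, in characteristic `p`. -/
theorem sub_one_pow_eq_sum {R : Type*} [Ring R] [CharP R p] (x : R) (j : ℕ) :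
    (x - 1) ^ (p ^ j - 1) = ∑ i ∈ range (p ^ j), x ^ i := by
  letI : Algebra (ZMod p) R := ZMod.algebra R p
  have key : ((Polynomial.X : Polynomial (ZMod p)) - 1) ^ (p ^ j - 1) =
      ∑ i ∈ range (p ^ j), Polynomial.X ^ i := by
    have hne : (Polynomial.X : Polynomial (ZMod p)) - 1 ≠ 0 := by
      rw [← Polynomial.C_1]; exact Polynomial.X_sub_C_ne_zero 1
    apply mul_left_cancel₀ hne
    have hq : 1 ≤ p ^ j := Nat.one_le_pow _ _ hp.out.pos
    rw [mul_geom_sum, ← pow_succ', Nat.sub_add_cancel hq, sub_pow_char_pow, one_pow]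
  simpa using congrArg (Polynomial.aeval x) key

theorem sub_one_pow_char_pow {R : Type*} [Ring R] [CharP R p] (x : R) (j : ℕ) :
    (x - 1) ^ (p ^ j) = x ^ (p ^ j) - 1 := by
  rw [sub_pow_char_pow_of_commute (p := p) (h := Commute.one_right x), one_pow]

theorem charP_end {V : Type*} [AddCommGroup V] [Nontrivial V] (hV : ∀ v : V, p • v = 0) :
    CharP (AddMonoid.End V) p := by
  haveI : Nontrivial (AddMonoid.End V) := by
    obtain ⟨v, hv⟩ := exists_ne (0 : V)
    exact ⟨⟨0, 1, fun h => hv ((DFunLike.congr_fun h v).symm)⟩⟩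
  refine (CharP.charP_iff_prime_eq_zero hp.out).2 ?_
  ext v
  simpa using hV v

theorem addSubgroup_card_pow {V : Type*} [AddCommGroup V] [Finite V] (hV : ∀ v : V, p • v = 0)
    (L : AddSubgroup V) : ∃ k, Nat.card L = p ^ k := by
  have h : IsPGroup p (Multiplicative L) := fun x =>
    ⟨1, by
      rw [pow_one]
      exact Multiplicative.toAdd.injective (Subtype.ext (hV _))⟩
  obtain ⟨k, hk⟩ := IsPGroup.iff_card.mp h
  exact ⟨k, (Nat.card_congr Multiplicative.toAdd.symm).trans hk⟩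

theorem mul_card_le_of_lt {V : Type*} [AddCommGroup V] [Finite V] (hV : ∀ v : V, p • v = 0)
    {L M : AddSubgroup V} (h : L < M) : p * Nat.card L ≤ Nat.card M := by
  obtain ⟨i, hi⟩ := addSubgroup_card_pow hV L
  obtain ⟨k, hk⟩ := addSubgroup_card_pow hV M
  have hik : i < k := by
    by_contra hc
    refine h.ne (AddSubgroup.eq_of_le_of_card_ge h.le ?_)
    rw [hi, hk]
    exact Nat.pow_le_pow_right hp.out.pos (not_lt.1 hc)
  rw [hi, hk, ← pow_succ']
  exact Nat.pow_le_pow_right hp.out.pos hik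

/-- If `D^n` does not kill `L` then the image of `L` under `D^m` has order at least `p^(n+1-m)`. -/
theorem pow_le_card_map {V : Type*} [AddCommGroup V] [Finite V] (hV : ∀ v : V, p • v = 0)
    (D : AddMonoid.End V) (L : AddSubgroup V) (hL : ∀ l ∈ L, D l ∈ L)
    (N : ℕ) (hN : ∀ l ∈ L, (D ^ N) l = 0) {n : ℕ} (hn : ∃ l ∈ L, (D ^ n) l ≠ 0) (m : ℕ) :
    p ^ (n + 1 - m) ≤ Nat.card (L.map (D ^ m : AddMonoid.End V)) := by
  have hstep : ∀ i, L.map (D ^ (i + 1) : AddMonoid.End V) =
      (L.map (D ^ i : AddMonoid.End V)).map (D : AddMonoid.End V) := fun i => by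
    ext x
    constructor
    · rintro ⟨l, hl, rfl⟩
      exact ⟨(D ^ i) l, ⟨l, hl, rfl⟩, by rw [pow_succ']; rfl⟩
    · rintro ⟨y, ⟨l, hl, rfl⟩, rfl⟩
      exact ⟨l, hl, by rw [pow_succ']; rfl⟩
  have hle : ∀ i, L.map (D ^ (i + 1) : AddMonoid.End V) ≤ L.map (D ^ i : AddMonoid.End V) := by
    intro i x hx
    obtain ⟨l, hl, rfl⟩ := hx
    exact ⟨D l, hL l hl, by rw [pow_succ]; rfl⟩
  have hlt : ∀ i ≤ n, L.map (D ^ (i + 1) : AddMonoid.End V) < L.map (D ^ i : AddMonoid.End V) := by
    intro i hi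
    refine lt_of_le_of_ne (hle i) fun heq => ?_
    have hstab : ∀ k, L.map (D ^ (i + k) : AddMonoid.End V) = L.map (D ^ i : AddMonoid.End V) := by
      intro k
      induction k with
      | zero => rfl
      | succ k ih => rw [← add_assoc, hstep, ih, ← hstep, heq]
    obtain ⟨l, hl, hne⟩ := hn
    have h1 : (D ^ n) l ∈ L.map (D ^ (i + N) : AddMonoid.End V) := by
      rw [hstab N, ← hstab (n - i), Nat.add_sub_cancel' hi]
      exact ⟨l, hl, rfl⟩
    obtain ⟨l', hl', he⟩ := h1
    apply hne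
    rw [← he]
    have : (D ^ i * D ^ N : AddMonoid.End V) l' = 0 := by
      show (D ^ i) ((D ^ N) l') = 0
      rw [hN l' hl', map_zero]
    rw [← pow_add] at this
    exact this
  suffices ∀ d m, n + 1 - m = d → p ^ d ≤ Nat.card (L.map (D ^ m : AddMonoid.End V)) from
    this _ m rfl
  intro d
  induction d with
  | zero => intro m _; rw [pow_zero]; exact Nat.card_pos
  | succ d ih =>
    intro m hm
    rw [pow_succ']
    exact le_trans (Nat.mul_le_mul_left p (ih (m + 1) (by omega)))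
      (mul_card_le_of_lt hV (hlt m (by omega)))

theorem add_one_le_pow (hp3 : 3 ≤ p) {i : ℕ} (hi : 2 ≤ i) : i + 1 ≤ p ^ (i - 1) := by
  obtain ⟨k, rfl⟩ := Nat.exists_eq_add_of_le hi
  have h1 : 3 ^ (2 + k - 1) ≤ p ^ (2 + k - 1) := Nat.pow_le_pow_left hp3 _
  refine le_trans ?_ h1
  clear h1
  induction k with
  | zero => norm_num
  | succ k ih =>
    have ih' := ih (by omega)
    rw [show 2 + (k + 1) - 1 = (2 + k - 1) + 1 by omega, pow_succ]
    omega

/-- An automorphism `σ` of `p`-power order whose commutator has at most as many elements as `σ`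
is quadratic. -/
theorem sub_one_sq_eq_zero (hp3 : 3 ≤ p) {V : Type*} [AddCommGroup V] [Finite V]
    (hV : ∀ v : V, p • v = 0) (σ : AddMonoid.End V) (hσ : ∃ i, σ ^ (p ^ i) = 1)
    (hcard : ∀ i, σ ^ (p ^ i) = 1 →
      Nat.card ((⊤ : AddSubgroup V).map (σ - 1 : AddMonoid.End V)) ≤ p ^ i) (v : V) :
    ((σ - 1) ^ 2 : AddMonoid.End V) v = 0 := by
  classical
  rcases subsingleton_or_nontrivial V with hs | hs
  · exact Subsingleton.elim _ _
  haveI := charP_end (p := p) hV
  set i := Nat.find hσ with hi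
  have hspec : σ ^ (p ^ i) = 1 := Nat.find_spec hσ
  have hnil : (σ - 1) ^ (p ^ i) = (0 : AddMonoid.End V) := by
    rw [sub_one_pow_char_pow, hspec, sub_self]
  have hchain : ∀ n, (∃ w, ((σ - 1) ^ n : AddMonoid.End V) w ≠ 0) → p ^ n ≤ p ^ i := by
    rintro n ⟨w, hw⟩
    have := pow_le_card_map hV (σ - 1) ⊤ (fun _ _ => trivial) (p ^ i)
      (fun l _ => by rw [hnil]; rfl) ⟨w, trivial, hw⟩ 1
    rw [Nat.add_sub_cancel, pow_one] at this
    exact this.trans (hcard i hspec)
  by_cases hi2 : i ≤ 1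
  · by_contra hne
    have := Nat.pow_le_pow_iff_right hp.out.one_lt |>.1 (hchain 2 ⟨v, hne⟩)
    omega
  exfalso
  have hzero : (σ - 1) ^ (i + 1) = (0 : AddMonoid.End V) := by
    ext w
    by_contra hne
    have := Nat.pow_le_pow_iff_right hp.out.one_lt |>.1 (hchain (i + 1) ⟨w, hne⟩)
    omega
  have h2 : σ ^ (p ^ (i - 1)) = 1 := by
    rw [← sub_eq_zero, ← sub_one_pow_char_pow]
    exact pow_eq_zero_of_le (add_one_le_pow hp3 (by omega)) hzero
  exact absurd (Nat.find_min' hσ h2) (by omega)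

/-- `|M ⊔ N| |M ⊓ N| = |M| |N|`. -/
theorem card_sup_mul_card_inf {V : Type*} [AddCommGroup V] (M N : AddSubgroup V) :
    Nat.card ↥(M ⊔ N) * Nat.card ↥(M ⊓ N) = Nat.card M * Nat.card N := by
  have h1 : Nat.card N * N.relIndex (M ⊔ N) = Nat.card ↥(M ⊔ N) := by
    rw [← AddSubgroup.relIndex_bot_left, ← AddSubgroup.relIndex_bot_left,
      AddSubgroup.relIndex_mul_relIndex _ _ _ bot_le le_sup_right]
  have h2 : Nat.card ↥(M ⊓ N) * (M ⊓ N).relIndex M = Nat.card M := by
    rw [← AddSubgroup.relIndex_bot_left, ← AddSubgroup.relIndex_bot_left,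
      AddSubgroup.relIndex_mul_relIndex _ _ _ bot_le inf_le_left]
  rw [AddSubgroup.inf_relIndex_left] at h2
  rw [AddSubgroup.relIndex_sup_right] at h1
  rw [← h1, ← h2]
  ring

end Cfsg.Agent.ThompsonFive
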